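import Cfsg.Agent.H41.ExtraExt.Basic
import Cfsg.Agent.H24.PGroupBasic
import Cfsg.Agent.H27.Clifford
import Cfsg.Agent.H43.SubgroupAction
import Cfsg.Agent.H56.Clifford
import Cfsg.Agent.S0886

/-!
# The base case: a fixed-point-free element of prime order

If `k` of odd prime order `q` acts on `E` fixing only `⟨z⟩`, then for a `2`-group `T` centralising
`k` the Glauberman correspondent of the sign character of `⟨z⟩T` is an extension of the faithful
character of `E`. It is canonical, so it is invariant under a `2`-group normalising `⟨k⟩` and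
extends along the cyclic quotient.
-/

set_option autoImplicit false

open scoped ComplexConjugate Pointwise

attribute [local instance 10000] Fintype.ofFinite

namespace Cfsg.Agent.H41.ExtraExt

universe u

variable {G : Type u} [Group G] {z : G} {E : Subgroup G} {k : G} {q : ℕ}

theorem exists_mul_of_mem_sup {A B : Subgroup G} (h : B ≤ Subgroup.normalizer (A : Set G)) {x : G}
    (hx : x ∈ A ⊔ B) : ∃ a ∈ A, ∃ b ∈ B, a * b = x := by
  have h1 : (x : G) ∈ ((A ⊔ B : Subgroup G) : Set G) := hx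
  rw [Subgroup.coe_mul_of_right_le_normalizer_left A B h] at h1
  exact Set.mem_mul.1 h1

/-- The setting of the base case. -/
structure Base (z : G) (E : Subgroup G) (k : G) (q : ℕ) : Prop where
  good : Good z E
  cen : z ∈ Subgroup.center G
  prime : q.Prime
  odd : q ≠ 2
  pow : k ^ q = 1
  norm : k ∈ Subgroup.normalizer (E : Set G)
  fix : ∀ x ∈ E, k * x = x * k → x ∈ Subgroup.zpowers z

/-- A `2`-group of operators commuting with `k`. -/
structure Tok (z : G) (E : Subgroup G) (k : G) (T : Subgroup G) : Prop where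
  pgroup : IsPGroup 2 T
  norm : T ≤ Subgroup.normalizer (E : Set G)
  comm : ∀ t ∈ T, k * t = t * k
  notMem : z ∉ T

variable {T T' : Subgroup G}

theorem Tok.mono (h : Tok z E k T) (hle : T' ≤ T) : Tok z E k T' :=
  ⟨h.pgroup.to_le hle, hle.trans h.norm, fun t ht => h.comm t (hle ht), fun hm => h.notMem (hle hm)⟩

theorem zpowers_normal (hz : z ∈ Subgroup.center G) : (Subgroup.zpowers z).Normal :=
  ⟨fun c hc g => by
    obtain ⟨i, rfl⟩ := hc
    rw [Subgroup.mem_center_iff.1 ((Subgroup.center G).zpow_mem hz i) g, mul_inv_cancel_right]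
    exact Subgroup.zpow_mem _ (Subgroup.mem_zpowers z) i⟩

theorem le_normalizer_zpowers (hz : z ∈ Subgroup.center G) (T : Subgroup G) :
    T ≤ Subgroup.normalizer (Subgroup.zpowers z : Set G) := by
  haveI := zpowers_normal hz
  rw [Subgroup.normalizer_eq_top]
  exact le_top

theorem relIndex_sup_of_normalizes {A B : Subgroup G} (h : B ≤ Subgroup.normalizer (A : Set G)) :
    A.relIndex (B ⊔ A) = A.relIndex B := by
  haveI : (A.subgroupOf (B ⊔ A)).Normal :=
    Subgroup.normal_subgroupOf_of_le_normalizer (sup_le h Subgroup.le_normalizer)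
  have key := Subgroup.relIndex_sup_right (H := B.subgroupOf (B ⊔ A)) (K := A.subgroupOf (B ⊔ A))
  rwa [← Subgroup.subgroupOf_sup le_sup_left le_sup_right, Subgroup.relIndex_subgroupOf le_rfl,
    Subgroup.relIndex_subgroupOf le_sup_left] at key

/-- The fixed points. -/
def fixC (z : G) (T : Subgroup G) : Subgroup G := Subgroup.zpowers z ⊔ T

theorem z_mem_fixC : z ∈ fixC z T := Subgroup.mem_sup_left (Subgroup.mem_zpowers z)

theorem fixC_le (hb : Base z E k q) : fixC z T ≤ E ⊔ T :=
  sup_le_sup_right (Subgroup.zpowers_le.2 hb.good.mem) T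

theorem fixC_eq (hb : Base z E k q) (hT : Tok z E k T) :
    fixC z T = (E ⊔ T) ⊓ Subgroup.centralizer (Subgroup.zpowers k : Set G) := by
  refine le_antisymm (le_inf (fixC_le hb) ?_) fun x hx => ?_
  · rw [Subgroup.le_centralizer_iff, Subgroup.zpowers_le, Subgroup.mem_centralizer_iff]
    intro y hy
    obtain ⟨a, ha, b, hb', rfl⟩ := exists_mul_of_mem_sup (le_normalizer_zpowers hb.cen T) hy
    obtain ⟨i, rfl⟩ := ha
    have h1 : k * z ^ i = z ^ i * k :=
      Subgroup.mem_center_iff.1 ((Subgroup.center G).zpow_mem hb.cen i) k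
    rw [mul_assoc, ← hT.comm b hb', ← mul_assoc, ← h1, mul_assoc]
  · obtain ⟨hxW, hxk⟩ := hx
    obtain ⟨e, he, t, ht, rfl⟩ := exists_mul_of_mem_sup hT.norm hxW
    have h := Subgroup.mem_centralizer_iff.1 hxk k (Subgroup.mem_zpowers k)
    refine Subgroup.mul_mem_sup (hb.fix e he (mul_right_cancel (b := t) ?_)) ht
    rw [mul_assoc e, hT.comm t ht, mul_assoc, h, mul_assoc]

theorem conj_zpowers_sup (hb : Base z E k q) (hT : Tok z E k T) :
    ∀ s ∈ Subgroup.zpowers k, ∀ g ∈ E ⊔ T, s * g * s⁻¹ ∈ E ⊔ T := by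
  intro s hs g hg
  obtain ⟨e, he, t, ht, rfl⟩ := exists_mul_of_mem_sup hT.norm hg
  have hst : s * t = t * s := by
    obtain ⟨i, rfl⟩ := hs
    exact (Commute.zpow_left (hT.comm t ht) i).eq
  have hse : s * e * s⁻¹ ∈ E :=
    (Subgroup.mem_normalizer_iff.1 ((Subgroup.zpowers_le.2 hb.norm) hs) e).1 he
  rw [show s * (e * t) * s⁻¹ = s * e * s⁻¹ * t from by
    calc s * (e * t) * s⁻¹ = s * e * (t * s⁻¹) := by group
      _ = s * e * (s⁻¹ * t) := by
        rw [show t * s⁻¹ = s⁻¹ * t from by
          rw [eq_inv_mul_iff_mul_eq, ← mul_assoc, hst, mul_inv_cancel_right]]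
      _ = _ := by group]
  exact Subgroup.mul_mem_sup hse ht

variable [Finite G]

theorem not_dvd_card (hb : Base z E k q) (hT : Tok z E k T) :
    ¬ q ∣ Nat.card (E ⊔ T : Subgroup G) := by
  haveI : Fact (Nat.Prime 2) := ⟨Nat.prime_two⟩
  obtain ⟨n, hn⟩ := IsPGroup.iff_card.1 (hb.good.pgroup.to_sup_of_normal_left' hT.pgroup hT.norm)
  rw [hn]
  exact fun h => hb.odd ((Nat.prime_dvd_prime_iff_eq hb.prime Nat.prime_two).1
    (hb.prime.dvd_of_dvd_pow h))

theorem glauberman (hb : Base z E k q) (hT : Tok z E k T) :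
    H43.GlaubermanData q (H43.conjHom (E ⊔ T) (Subgroup.zpowers k) (conj_zpowers_sup hb hT))
      (Subgroup.inclusion (fixC_le hb)) := by
  refine H43.glaubermanData_of_subgroup _ _ _ hb.prime ?_ (not_dvd_card hb hT) _ (fixC_eq hb hT) _
  haveI : Fact q.Prime := ⟨hb.prime⟩
  rcases (Nat.dvd_prime hb.prime).1 (orderOf_dvd_of_pow_eq_one hb.pow) with h | h
  · exact IsPGroup.of_card (n := 0) (by rw [Nat.card_zpowers, h, pow_zero])
  · exact IsPGroup.of_card (n := 1) (by rw [Nat.card_zpowers, h, pow_one])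

/-- The sign character on the fixed points. -/
noncomputable def sgn (T : Subgroup G) (g : G) : ℂ :=
  open Classical in if g ∈ T then 1 else -1

omit [Finite G] in
theorem sgn_mul (hb : Base z E k q) (hT : Tok z E k T) {a b : G} (ha : a ∈ fixC z T)
    (hb' : b ∈ fixC z T) : sgn T (a * b) = sgn T a * sgn T b := by
  have hzc : ∀ g, z * g = g * z := fun g => (Subgroup.mem_center_iff.1 hb.cen g).symm
  have key : ∀ x ∈ fixC z T, x ∈ T ∨ z * x ∈ T := by
    intro x hx
    obtain ⟨c, hc, t, ht, rfl⟩ := exists_mul_of_mem_sup (le_normalizer_zpowers hb.cen T) hx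
    rcases mem_zpowers_cases hb.good.sq hc with rfl | rfl
    · exact Or.inl (by rwa [one_mul])
    · exact Or.inr (by rwa [← mul_assoc, ← sq, hb.good.sq, one_mul])
  by_cases h1 : a ∈ T <;> by_cases h2 : b ∈ T
  · simp [sgn, h1, h2, T.mul_mem h1 h2]
  · have : a * b ∉ T := fun h => h2 (by simpa using T.mul_mem (T.inv_mem h1) h)
    simp [sgn, h1, h2, this]
  · have : a * b ∉ T := fun h => h1 (by simpa using T.mul_mem h (T.inv_mem h2))
    simp [sgn, h1, h2, this]
  · have h : a * b ∈ T := by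
      have h := T.mul_mem ((key a ha).resolve_left h1) ((key b hb').resolve_left h2)
      rwa [show z * a * (z * b) = z ^ 2 * (a * b) by
        rw [sq, mul_assoc z a, ← mul_assoc a, ← hzc a]; group, hb.good.sq, one_mul] at h
    simp [sgn, h1, h2, h]

/-- The sign character of the fixed points, as a homomorphism. -/
noncomputable def sgnHom (hb : Base z E k q) (hT : Tok z E k T) : fixC z T →* ℂˣ :=
  MonoidHom.mk' (fun x => Units.mk0 (sgn T x) (by unfold sgn; split <;> norm_num))
    fun a b => Units.ext (sgn_mul hb hT a.2 b.2)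

/-- The sign character. -/
noncomputable def sgnIrr (hb : Base z E k q) (hT : Tok z E k T) :
    Cfsg.IrrCharacter (fixC z T) :=
  ⟨fun x => (sgnHom hb hT x : ℂ), H26.isIrrCharacter_hom _⟩

theorem sgnIrr_apply (hb : Base z E k q) (hT : Tok z E k T) (x : fixC z T) :
    (sgnIrr hb hT).1 x = sgn T x := rfl

/-- `χ` corresponds to the sign character. -/
def Corr (hb : Base z E k q) (hT : Tok z E k T)
    (χ : Cfsg.IrrCharacter (E ⊔ T : Subgroup G)) : Prop :=
  H43.InvFun (H43.conjHom (E ⊔ T) (Subgroup.zpowers k) (conj_zpowers_sup hb hT)) χ.1 ∧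
    ¬ q ∣ H43.resMult (Subgroup.inclusion (fixC_le hb)) χ (sgnIrr hb hT)

theorem exists_corr (hb : Base z E k q) (hT : Tok z E k T) : ∃ χ, Corr hb hT χ := by
  exact (glauberman hb hT).exists_of_res _

theorem Corr.unique {hb : Base z E k q} {hT : Tok z E k T}
    {χ ψ : Cfsg.IrrCharacter (E ⊔ T : Subgroup G)} (h : Corr hb hT χ) (h' : Corr hb hT ψ) :
    χ = ψ := by
  by_contra hne
  rcases (glauberman hb hT).disjoint h.1 h'.1 hne (sgnIrr hb hT) with hd | hd
  · exact h.2 hd
  · exact h'.2 hd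

theorem z_mem_center_sup (hb : Base z E k q) :
    (⟨z, Subgroup.mem_sup_left hb.good.mem⟩ : (E ⊔ T : Subgroup G)) ∈
      Subgroup.center (E ⊔ T : Subgroup G) :=
  Subgroup.mem_center_iff.2 fun g => Subtype.ext (Subgroup.mem_center_iff.1 hb.cen g)

theorem Corr.sign {hb : Base z E k q} {hT : Tok z E k T}
    {χ : Cfsg.IrrCharacter (E ⊔ T : Subgroup G)} (h : Corr hb hT χ) :
    χ.1 ⟨z, Subgroup.mem_sup_left hb.good.mem⟩ = -χ.1 1 := by
  classical
  rcases sign_cases χ (z_mem_center_sup hb) (Subtype.ext hb.good.sq) with ⟨-, hp⟩ | ⟨hm, -⟩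
  swap
  · exact hm
  exfalso
  set w : fixC z T := ⟨z, z_mem_fixC⟩ with hw
  let ι := Subgroup.inclusion (fixC_le (T := T) hb)
  have hmul : ∀ c, χ.1 (ι (w * c)) * conj ((sgnIrr hb hT).1 (w * c)) =
      -(χ.1 (ι c) * conj ((sgnIrr hb hT).1 c)) := fun c => by
    rw [map_mul, show ι w = ⟨z, Subgroup.mem_sup_left hb.good.mem⟩ from rfl, hp]
    have hs : (sgnIrr hb hT).1 (w * c) = -(sgnIrr hb hT).1 c := by
      rw [sgnIrr_apply, sgnIrr_apply, Subgroup.coe_mul, sgn_mul hb hT w.2 c.2,
        show sgn T (w : G) = -1 from if_neg hT.notMem, neg_one_mul]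
    rw [hs, map_neg, mul_neg]
  have h0 : ∑ c, χ.1 (ι c) * conj ((sgnIrr hb hT).1 c) = 0 := by
    have h1 := Equiv.sum_comp (Equiv.mulLeft w) fun c => χ.1 (ι c) * conj ((sgnIrr hb hT).1 c)
    simp only [Equiv.coe_mulLeft, hmul, Finset.sum_neg_distrib] at h1
    linear_combination (-(1 / 2 : ℂ)) * h1
  rw [H43.sum_res_mul_conj, mul_eq_zero] at h0
  rcases h0 with h0 | h0
  · exact Nat.card_pos.ne' (Nat.cast_eq_zero.1 h0)
  · exact h.2 (by rw [Nat.cast_eq_zero] at h0; rw [h0]; exact dvd_zero q)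

/-- Modulo `q` the restriction to the fixed points is a multiple of the sign character. -/
theorem Corr.res_cong {hb : Base z E k q} {hT : Tok z E k T}
    {χ : Cfsg.IrrCharacter (E ⊔ T : Subgroup G)} (h : Corr hb hT χ) :
    ∃ m : ℕ, ¬ q ∣ m ∧ ∀ c : fixC z T,
      H43.IntCong q (χ.1 (Subgroup.inclusion (fixC_le hb) c)) ((m : ℂ) * sgn T c) := by
  classical
  obtain ⟨b0, -, huniq⟩ := (glauberman hb hT).existsUnique χ h.1
  refine ⟨_, h.2, fun c => ?_⟩
  rw [H43.res_eq_sum χ c, ← Finset.add_sum_erase _ _ (Finset.mem_univ (sgnIrr hb hT))]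
  conv_rhs => rw [← add_zero ((_ : ℂ) * sgn T c)]
  rw [← sgnIrr_apply hb hT c]
  refine (H43.IntCong.refl q _).add ?_
  rw [← Finset.sum_const_zero (s := Finset.univ.erase (sgnIrr hb hT))]
  refine H43.IntCong.sum _ _ _ fun b hb' => H43.IntCong.natCast_mul_zero ?_ (H43.irr_isIntegral b _)
  by_contra hnd
  exact (Finset.mem_erase.1 hb').1 ((huniq b hnd).trans (huniq _ h.2).symm)

theorem conj_sup_of_normalizer {N : Subgroup G} (hTN : T' ≤ T) (hnT : ∀ t ∈ T, ∀ s ∈ T', t * s * t⁻¹ ∈ T')
    (hT : Tok z E k T) (hN : N = E ⊔ T') : E ⊔ T ≤ Subgroup.normalizer (N : Set G) := by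
  subst hN
  refine sup_le (le_sup_left.trans Subgroup.le_normalizer) ?_
  rw [Subgroup.le_normalizer_iff]
  intro t ht g hg
  obtain ⟨e, he, s, hs, rfl⟩ := exists_mul_of_mem_sup ((hT.mono hTN).norm) hg
  rw [show t * (e * s) * t⁻¹ = t * e * t⁻¹ * (t * s * t⁻¹) by group]
  exact Subgroup.mul_mem_sup ((Subgroup.mem_normalizer_iff.1 (hT.norm ht) e).1 he) (hnT t ht s hs)

/-- Conjugating the correspondent by an element normalising `⟨k⟩` and `T` gives it back. -/
theorem Corr.conj_eq {hb : Base z E k q} {hT : Tok z E k T}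
    {χ : Cfsg.IrrCharacter (E ⊔ T : Subgroup G)} (h : Corr hb hT χ) {t : G}
    (ht : t ∈ Subgroup.normalizer ((E ⊔ T : Subgroup G) : Set G)) (htT : ∀ s ∈ T, t * s * t⁻¹ ∈ T)
    (htk : t * k * t⁻¹ ∈ Subgroup.zpowers k) (x y : (E ⊔ T : Subgroup G))
    (hxy : (y : G) = t * x * t⁻¹) : χ.1 y = χ.1 x := by
  classical
  have hmem : ∀ x : (E ⊔ T : Subgroup G), t * x * t⁻¹ ∈ E ⊔ T := fun x =>
    (Subgroup.mem_normalizer_iff.1 ht x).1 x.2
  have hmem' : ∀ x : (E ⊔ T : Subgroup G), t⁻¹ * x * t ∈ E ⊔ T := fun x =>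
    (Subgroup.mem_normalizer_iff''.1 ht x).1 x.2
  let e : (E ⊔ T : Subgroup G) ≃* (E ⊔ T : Subgroup G) :=
    { toFun := fun x => ⟨t * x * t⁻¹, hmem x⟩
      invFun := fun x => ⟨t⁻¹ * x * t, hmem' x⟩
      left_inv := fun x => Subtype.ext (by simp [mul_assoc])
      right_inv := fun x => Subtype.ext (by simp [mul_assoc])
      map_mul' := fun a b => Subtype.ext (by simp [mul_assoc]) }
  set ψ : Cfsg.IrrCharacter (E ⊔ T : Subgroup G) :=
    ⟨fun x => χ.1 (e x), H56.isIrrCharacter_comp_equiv χ.2 e⟩ with hψ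
  have hψc : Corr hb hT ψ := by
    refine ⟨?_, ?_⟩
    · rw [H43.invFun_conjHom_iff]
      intro s hs g g' hgg
      show χ.1 (e g') = χ.1 (e g)
      refine (H43.invFun_conjHom_iff _ _ _ χ.1).1 h.1 (t * s * t⁻¹) ?_ _ _ ?_
      · obtain ⟨i, rfl⟩ := hs
        rw [← conj_zpow]
        exact Subgroup.zpow_mem _ htk i
      · show t * (g' : G) * t⁻¹ = t * s * t⁻¹ * (t * (g : G) * t⁻¹) * (t * s * t⁻¹)⁻¹
        rw [hgg]; group
    · obtain ⟨m, hm, hcong⟩ := h.res_cong
      intro hd
      have hsum := H43.sum_res_mul_conj (ι := Subgroup.inclusion (fixC_le hb)) ψ (sgnIrr hb hT)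
      have hc : ∀ c : fixC z T, H43.IntCong q
          (ψ.1 (Subgroup.inclusion (fixC_le hb) c) * conj ((sgnIrr hb hT).1 c)) (m : ℂ) := by
        intro c
        have hzc : ∀ g, z * g = g * z := fun g => (Subgroup.mem_center_iff.1 hb.cen g).symm
        have hc' : t * (c : G) * t⁻¹ ∈ fixC z T := by
          have hle : fixC z T ≤ (fixC z T).comap (MulAut.conj t).toMonoidHom := by
            refine sup_le (Subgroup.zpowers_le.2 ?_) fun s hs => ?_
            · show t * z * t⁻¹ ∈ fixC z T
              rw [← hzc t, mul_inv_cancel_right]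
              exact z_mem_fixC
            · exact Subgroup.mem_sup_right (htT s hs)
          exact hle c.2
        have hs : sgn T (t * (c : G) * t⁻¹) = sgn T c := by
          by_cases hcT : (c : G) ∈ T
          · simp [sgn, hcT, htT _ hcT]
          · have hzT : ∀ x ∈ fixC z T, x ∉ T → sgn T (z * x) = 1 := fun x hx hxT => by
              rw [sgn_mul hb hT z_mem_fixC hx]; simp [sgn, hxT, hT.notMem]
            have h2 := hzT c c.2 hcT
            have h3 : z * (c : G) ∈ T := by
              by_contra h4; simp [sgn, h4] at h2; norm_num at h2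
            have h5 : t * (c : G) * t⁻¹ ∉ T := by
              intro h6
              have h7 := htT _ h3
              rw [show t * (z * (c : G)) * t⁻¹ = z * (t * c * t⁻¹) by
                rw [← mul_assoc t, ← hzc t]; group] at h7
              have h8 := T.mul_mem h7 (T.inv_mem h6)
              rw [mul_inv_cancel_right] at h8
              exact hT.notMem h8
            simp [sgn, hcT, h5]
        have h1 := (hcong ⟨_, hc'⟩).mul_right (c := conj ((sgnIrr hb hT).1 c))
          (by rw [← H26.irr_inv]; exact H43.irr_isIntegral _ _)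
        have h2 : ((m : ℂ) * sgn T (t * (c : G) * t⁻¹)) * conj ((sgnIrr hb hT).1 c) = m := by
          rw [hs, sgnIrr_apply, mul_assoc]
          unfold sgn; split <;> simp
        rw [h2] at h1
        exact h1
      have h2 := H43.IntCong.sum Finset.univ _ _ fun c _ => hc c
      rw [hsum, Finset.sum_const, Finset.card_univ, nsmul_eq_mul, ← Nat.card_eq_fintype_card,
        ← Nat.cast_mul, ← Nat.cast_mul] at h2
      have h3 := H43.IntCong.int_modEq (m := ((Nat.card (fixC z T) *
        H43.resMult (Subgroup.inclusion (fixC_le hb)) ψ (sgnIrr hb hT) : ℕ) : ℤ))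
        (n := ((Nat.card (fixC z T) * m : ℕ) : ℤ)) hb.prime.ne_zero (by exact_mod_cast h2)
      rw [Int.natCast_modEq_iff] at h3
      rcases hb.prime.dvd_mul.1 ((Nat.ModEq.dvd_iff h3 dvd_rfl).1 (hd.mul_left _)) with h4 | h4
      · exact (glauberman hb hT).not_dvd h4
      · exact hm h4
  have := congrArg (fun φ : Cfsg.IrrCharacter (E ⊔ T : Subgroup G) => φ.1 x) (hψc.unique h)
  rw [show y = e x from Subtype.ext hxy]
  exact this

/-- The correspondent of the sign character restricts irreducibly to `E`. -/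
theorem Corr.degree {hb : Base z E k q} : ∀ {T : Subgroup G} {hT : Tok z E k T}
    {χ : Cfsg.IrrCharacter (E ⊔ T : Subgroup G)}, Corr hb hT χ →
      χ.1 1 ^ 2 * 2 = (Nat.card E : ℂ) := by
  classical
  haveI : Fact (Nat.Prime 2) := ⟨Nat.prime_two⟩
  intro T
  induction hn : Nat.card T using Nat.strong_induction_on generalizing T with
  | _ n ih =>
  intro hT χ hχ
  by_cases hbot : T = ⊥
  · subst hbot
    have he : (E ⊔ ⊥ : Subgroup G) = E := sup_bot_eq E
    let θ : Cfsg.IrrCharacter E :=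
      ⟨fun x => χ.1 ((MulEquiv.subgroupCongr he).symm x),
        H56.isIrrCharacter_comp_equiv χ.2 (MulEquiv.subgroupCongr he).symm⟩
    have hθz : θ.1 ⟨z, hb.good.mem⟩ = -θ.1 1 := hχ.sign
    exact (hb.good.irr_props hb.cen θ hθz).2
  · -- a subgroup of index two
    obtain ⟨M, hM, -, hMc⟩ := H24.exists_normal_le_card (G := T) (p := 2) hT.pgroup
      (N := ⊤) (k := (IsPGroup.iff_card.1 hT.pgroup).choose)
      (by rw [Subgroup.card_top]; exact (IsPGroup.iff_card.1 hT.pgroup).choose_spec)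
      (j := (IsPGroup.iff_card.1 hT.pgroup).choose - 1) (Nat.sub_le _ _)
    set a := (IsPGroup.iff_card.1 hT.pgroup).choose with ha
    have hTc : Nat.card T = 2 ^ a := (IsPGroup.iff_card.1 hT.pgroup).choose_spec
    have ha0 : a ≠ 0 := fun h0 => hbot (Subgroup.card_eq_one.1 (by rw [hTc, h0, pow_zero]))
    set T' := M.map T.subtype with hT'
    have hle : T' ≤ T := Subgroup.map_subtype_le _
    have hT'c : Nat.card T' = 2 ^ (a - 1) := by
      rw [hT', Subgroup.card_map_of_injective T.subtype_injective, hMc]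
    have hlt : Nat.card T' < n := by
      rw [← hn, hT'c, hTc]; exact Nat.pow_lt_pow_right one_lt_two (by omega)
    have hnT : ∀ t ∈ T, ∀ s ∈ T', t * s * t⁻¹ ∈ T' := by
      rintro t ht _ ⟨s, hs, rfl⟩
      exact ⟨_, hM.conj_mem s hs ⟨t, ht⟩, rfl⟩
    have hT2 : Tok z E k T' := hT.mono hle
    obtain ⟨χ', hχ'⟩ := exists_corr hb hT2
    have hdeg' := ih _ hlt rfl hχ'
    -- the normal subgroup
    let W := (E ⊔ T : Subgroup G)
    have hWN : E ⊔ T' ≤ W := sup_le_sup_left hle E
    set N := (E ⊔ T').subgroupOf W with hN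
    haveI : N.Normal := Subgroup.normal_subgroupOf_of_le_normalizer
      (conj_sup_of_normalizer hle hnT hT rfl)
    let e : N ≃* (E ⊔ T' : Subgroup G) := Subgroup.subgroupOfEquivOfLe hWN
    set θ : Cfsg.IrrCharacter N := H43.irrCongr e χ' with hθ
    have hinv : ∀ g : W, H56.twist N θ.1 g = θ.1 := by
      intro g
      obtain ⟨x, hx, t, ht, hxt⟩ := exists_mul_of_mem_sup hT.norm g.2
      funext n
      show χ'.1 (e ⟨g * n * g⁻¹, _⟩) = χ'.1 (e n)
      have htN : t ∈ Subgroup.normalizer ((E ⊔ T' : Subgroup G) : Set G) :=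
        conj_sup_of_normalizer hle hnT hT rfl (Subgroup.mem_sup_right ht)
      have hn' : t * ((n : W) : G) * t⁻¹ ∈ E ⊔ T' :=
        (Subgroup.mem_normalizer_iff.1 htN _).1 n.2
      have h1 := hχ'.conj_eq htN (fun s hs => hnT t ht s hs)
        (by rw [← hT.comm t ht, mul_inv_cancel_right]; exact Subgroup.mem_zpowers k)
        (e n) ⟨_, hn'⟩ rfl
      rw [← h1]
      have h2 := H26.irr_conj χ' ⟨_, hn'⟩ ⟨x, Subgroup.mem_sup_left hx⟩
      rw [← h2]
      refine congrArg χ'.1 (Subtype.ext ?_)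
      show ((g : G) * ((n : W) : G) * (g : G)⁻¹) = x * (t * ((n : W) : G) * t⁻¹) * x⁻¹
      rw [← hxt]; group
    -- the multiplicity of `χ'` is prime to `q`
    obtain ⟨m, hm, hmc⟩ := hχ.res_cong
    obtain ⟨m', hm', hmc'⟩ := hχ'.res_cong
    have hres : Cfsg.IsCharacter (E ⊔ T' : Subgroup G)
        (fun x : (E ⊔ T' : Subgroup G) => χ.1 (Subgroup.inclusion hWN x)) :=
      H26.isCharacter_comp (H26.irr_isCharacter χ) (Subgroup.inclusion hWN)
    have hcongW : H43.IntCong q
        (∑ x : (E ⊔ T' : Subgroup G), χ.1 (Subgroup.inclusion hWN x) * conj (χ'.1 x))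
        ((Nat.card (fixC z T') * (m * m') : ℕ) : ℂ) := by
      refine ((glauberman hb hT2).sum_cong
        (fun x => χ.1 (Subgroup.inclusion hWN x) * conj (χ'.1 x)) (fun x => ?_) ?_).trans ?_
      · rw [← H26.irr_inv]
        exact (H43.irr_isIntegral χ _).mul (H43.irr_isIntegral χ' _)
      · intro s g
        show χ.1 (Subgroup.inclusion hWN _) * conj (χ'.1 _) =
          χ.1 (Subgroup.inclusion hWN g) * conj (χ'.1 g)
        rw [hχ'.1 s g, ← hχ.1 s (Subgroup.inclusion hWN g)]
        rfl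
      · rw [Nat.cast_mul, Nat.card_eq_fintype_card, ← nsmul_eq_mul, ← Finset.card_univ,
          ← Finset.sum_const]
        refine H43.IntCong.sum _ _ _ fun c _ => ?_
        have hcT : fixC z T' ≤ fixC z T := sup_le_sup_left hle _
        have h1 := hmc ⟨c, hcT c.2⟩
        have hsg : sgn T (c : G) = sgn T' (c : G) := by
          by_cases hc : (c : G) ∈ T'
          · simp [sgn, hc, hle hc]
          · have hzc : (sgn T' (z * c : G)) = 1 := by
              rw [sgn_mul hb hT2 z_mem_fixC c.2]; simp [sgn, hc, hT2.notMem]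
            have hz' : z * (c : G) ∈ T' := by
              by_contra h4; simp [sgn, h4] at hzc; norm_num at hzc
            have : (c : G) ∉ T := fun h => hT.notMem (by
              simpa using T.mul_mem (hle hz') (T.inv_mem h))
            simp [sgn, hc, this]
        have h2 := h1.mul_right (c := conj (χ'.1 (Subgroup.inclusion (fixC_le hb) c)))
          (by rw [← H26.irr_inv]; exact H43.irr_isIntegral χ' _)
        refine H43.IntCong.trans ?_ ((h2.trans ?_))
        · exact H43.IntCong.refl q _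
        · have h3 := (hmc' c).mul_left (c := (m : ℂ) * sgn T' (c : G))
            ((isIntegral_natCast m).mul (by unfold sgn; split <;> simp [isIntegral_one]))
          have h4 : (m : ℂ) * sgn T' (c : G) * ((m' : ℂ) * sgn T' (c : G)) =
              ((m * m' : ℕ) : ℂ) := by
            unfold sgn; split <;> push_cast <;> ring
          rw [h4] at h3
          rw [show sgn T ((⟨c, hcT c.2⟩ : fixC z T) : G) = sgn T' (c : G) from hsg]
          refine H43.IntCong.trans ?_ h3
          obtain ⟨γ, hγ, hγe⟩ := hmc' c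
          refine ⟨(m : ℂ) * sgn T' (c : G) * (conj γ - γ), ?_, ?_⟩
          · refine ((isIntegral_natCast m).mul (by unfold sgn; split <;> simp [isIntegral_one])).mul
              (IsIntegral.sub ?_ hγ)
            exact hγ.map ((starRingEnd ℂ).toIntAlgHom)
          · have hc : conj ((m' : ℂ) * sgn T' (c : G)) = (m' : ℂ) * sgn T' (c : G) := by
              unfold sgn; split <;> simp
            have hcg := congrArg (starRingEnd ℂ) hγe
            rw [map_sub, hc, map_mul, Complex.conj_natCast] at hcg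
            linear_combination ((m : ℂ) * sgn T' (c : G)) * hcg -
              ((m : ℂ) * sgn T' (c : G)) * hγe
    set μ := H43.mult (fun x : (E ⊔ T' : Subgroup G) => χ.1 (Subgroup.inclusion hWN x)) χ' with hμ
    have hμ0 : μ ≠ 0 := by
      intro h0
      have h := H43.classInner_eq_mult hres χ'
      rw [← hμ, h0, Nat.cast_zero, Cfsg.classInner, mul_eq_zero] at h
      rcases h with h | h
      · exact inv_ne_zero (Nat.cast_ne_zero.2 Nat.card_pos.ne') h
      · rw [h] at hcongW
        rcases hb.prime.dvd_mul.1 (H43.IntCong.nat_dvd hb.prime.ne_zero hcongW.symm) with h5 | h5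
        · exact (glauberman hb hT2).not_dvd h5
        · exact (hb.prime.dvd_mul.1 h5).elim hm hm'
    have hinner : Cfsg.classInner (fun n : N => χ.1 n) θ.1 = (μ : ℂ) := by
      rw [← H43.classInner_eq_mult hres χ', ← H43.classInner_congr e]
      rfl
    have hcl := H27.clifford_restriction N χ.2 θ.2 (by rw [hinner]; exact_mod_cast hμ0)
    have hO : {ψ : N → ℂ | ∃ g : W, ψ = H56.twist N θ.1 g} = {θ.1} := by
      ext ψ
      simp only [Set.mem_setOf_eq, hinv, Set.mem_singleton_iff, exists_const]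
    rw [hO, finsum_mem_singleton, hinner] at hcl
    -- the norm bound
    have hidx : Nat.card W ≤ 2 * Nat.card N := by
      have h1 : N.index ≤ 2 := by
        show (E ⊔ T').relIndex W ≤ 2
        have h2 : (E ⊔ T').relIndex T ∣ T'.relIndex T :=
          Subgroup.relIndex_dvd_of_le_left T le_sup_right
        have h3 : T'.relIndex T = 2 := by
          have h4 := Subgroup.relIndex_mul_relIndex ⊥ T' T bot_le hle
          rw [Subgroup.relIndex_bot_left, Subgroup.relIndex_bot_left, hT'c, hTc,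
            ← Nat.sub_add_cancel (Nat.pos_of_ne_zero ha0), pow_add, Nat.add_sub_cancel,
            pow_one] at h4
          exact Nat.eq_of_mul_eq_mul_left (by positivity) h4
        rw [h3] at h2
        have h5 : (E ⊔ T').relIndex W = (E ⊔ T').relIndex T := by
          have hn2 : T ≤ Subgroup.normalizer ((E ⊔ T' : Subgroup G) : Set G) :=
            le_sup_right.trans (conj_sup_of_normalizer hle hnT hT rfl)
          rw [show W = T ⊔ (E ⊔ T') from by
            show E ⊔ T = _; rw [← sup_assoc, sup_comm T E, sup_assoc, sup_eq_left.2 hle]]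
          have hle3 : T ⊔ (E ⊔ T') ≤ Subgroup.normalizer ((E ⊔ T' : Subgroup G) : Set G) :=
            sup_le hn2 Subgroup.le_normalizer
          exact relIndex_sup_of_normalizes hn2
        rw [h5]; exact Nat.le_of_dvd two_pos h2
      rw [← Subgroup.card_mul_index N, mul_comm 2]
      exact Nat.mul_le_mul_left _ h1
    have hμ1 : μ = 1 := by
      have hA : ∑ g : N, χ.1 g * conj (χ.1 g) = (μ : ℂ) ^ 2 * Nat.card N := by
        have h := H43.sum_mul_conj θ θ
        rw [if_pos rfl] at h
        rw [← h, Finset.mul_sum]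
        refine Finset.sum_congr rfl fun g _ => ?_
        rw [show χ.1 g = (μ : ℂ) * θ.1 g from congrFun hcl g, map_mul, Complex.conj_natCast]
        ring
      have hB := H43.sum_mul_conj χ χ
      rw [if_pos rfl] at hB
      have hle2 : ((μ : ℝ) ^ 2 * Nat.card N) ≤ (Nat.card W : ℝ) := by
        have e1 : ((μ : ℝ) ^ 2 * Nat.card N) = ∑ g : N, Complex.normSq (χ.1 g) := by
          have h := congrArg Complex.re hA
          rw [Complex.re_sum] at h
          simp only [Complex.mul_conj, Complex.ofReal_re] at h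
          rw [show (μ : ℂ) ^ 2 * (Nat.card N : ℂ) = (((μ : ℝ) ^ 2 * Nat.card N : ℝ) : ℂ) by
            push_cast; ring, Complex.ofReal_re] at h
          exact h.symm
        have e2 : (Nat.card W : ℝ) = ∑ g : W, Complex.normSq (χ.1 g) := by
          have h := congrArg Complex.re hB
          rw [Complex.re_sum] at h
          simp only [Complex.mul_conj, Complex.ofReal_re] at h
          rw [h, Complex.natCast_re]
        rw [e1, e2]
        refine (Finset.sum_map Finset.univ ⟨Subtype.val, Subtype.val_injective⟩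
          (fun g : W => Complex.normSq (χ.1 g))).symm.trans_le ?_
        exact Finset.sum_le_sum_of_subset_of_nonneg (Finset.subset_univ _)
          fun g _ _ => Complex.normSq_nonneg _
      have hle3 : μ ^ 2 * Nat.card N ≤ 2 * Nat.card N := by
        refine le_trans ?_ hidx
        exact_mod_cast hle2
      have h4 : μ ^ 2 ≤ 2 := Nat.le_of_mul_le_mul_right hle3 Nat.card_pos
      have : μ < 2 := by by_contra h; push Not at h; nlinarith
      omega
    have h1 : χ.1 1 = χ'.1 1 := by
      have h := congrFun hcl 1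
      rw [hμ1, Nat.cast_one, one_smul] at h
      simpa [hθ, H43.irrCongr_apply] using h
    rw [h1]
    exact hdeg'

/-- The extension in the base case. -/
theorem ext_of_base (hb : Base z E k q) {S : Subgroup G} (hS : IsPGroup 2 S)
    (hSE : S ≤ Subgroup.normalizer (E : Set G)) (hzS : z ∉ S)
    (hSk : ∀ s ∈ S, s * k * s⁻¹ ∈ Subgroup.zpowers k) : Ext z E S := by
  classical
  haveI := Fact.mk hb.prime
  set T := S ⊓ Subgroup.centralizer (Subgroup.zpowers k : Set G) with hT_def
  have hTle : T ≤ S := inf_le_left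
  have hT : Tok z E k T := ⟨hS.to_le hTle, hTle.trans hSE,
    fun t ht => Subgroup.mem_centralizer_iff.1 ht.2 k (Subgroup.mem_zpowers k),
    fun h => hzS (hTle h)⟩
  obtain ⟨χ, hχ⟩ := exists_corr hb hT
  set W := (E ⊔ S : Subgroup G) with hW
  have hNW : E ⊔ T ≤ W := sup_le_sup_left hTle E
  have hSnk : ∀ s ∈ S, ∀ x ∈ Subgroup.zpowers k, s * x * s⁻¹ ∈ Subgroup.zpowers k := by
    rintro s hs _ ⟨i, rfl⟩
    rw [← conj_zpow]; exact Subgroup.zpow_mem _ (hSk s hs) i
  have hSnorm : S ≤ Subgroup.normalizer (Subgroup.zpowers k : Set G) :=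
    Subgroup.le_normalizer_iff.2 hSnk
  have hST : ∀ s ∈ S, ∀ t ∈ T, s * t * s⁻¹ ∈ T := by
    intro s hs t ht
    refine ⟨S.mul_mem (S.mul_mem hs ht.1) (S.inv_mem hs), Subgroup.mem_centralizer_iff.2 fun x hx => ?_⟩
    have hx' : s⁻¹ * x * s ∈ Subgroup.zpowers k := by simpa using hSnk s⁻¹ (S.inv_mem hs) x hx
    have h := Subgroup.mem_centralizer_iff.1 ht.2 _ hx'
    calc x * (s * t * s⁻¹) = s * ((s⁻¹ * x * s) * t) * s⁻¹ := by group
      _ = s * (t * (s⁻¹ * x * s)) * s⁻¹ := by rw [h]
      _ = s * t * s⁻¹ * x := by group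
  have hSN : S ≤ Subgroup.normalizer ((E ⊔ T : Subgroup G) : Set G) := by
    rw [Subgroup.le_normalizer_iff]
    intro s hs g hg
    obtain ⟨e, he, t, ht, rfl⟩ := exists_mul_of_mem_sup hT.norm hg
    rw [show s * (e * t) * s⁻¹ = s * e * s⁻¹ * (s * t * s⁻¹) by group]
    exact Subgroup.mul_mem_sup ((Subgroup.mem_normalizer_iff.1 (hSE hs) e).1 he) (hST s hs t ht)
  set N := (E ⊔ T).subgroupOf W with hN
  haveI : N.Normal := Subgroup.normal_subgroupOf_of_le_normalizer
    (sup_le (le_sup_left.trans Subgroup.le_normalizer) hSN)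
  let e : N ≃* (E ⊔ T : Subgroup G) := Subgroup.subgroupOfEquivOfLe hNW
  have hinv : ∀ (g : W) (n : N), (fun n => χ.1 (e n))
      ⟨g * n * g⁻¹, ‹N.Normal›.conj_mem (n : W) n.2 g⟩ = χ.1 (e n) := by
    intro g n
    obtain ⟨x, hx, t, ht, hxt⟩ := exists_mul_of_mem_sup hSE g.2
    have hn' : t * ((n : W) : G) * t⁻¹ ∈ E ⊔ T :=
      (Subgroup.mem_normalizer_iff.1 (hSN ht) _).1 n.2
    have h1 := hχ.conj_eq (hSN ht) (hST t ht) (hSk t ht) (e n) ⟨_, hn'⟩ rfl
    rw [← h1, ← H26.irr_conj χ ⟨_, hn'⟩ ⟨x, Subgroup.mem_sup_left hx⟩]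
    refine congrArg χ.1 (Subtype.ext ?_)
    show ((g : G) * ((n : W) : G) * (g : G)⁻¹) = x * (t * ((n : W) : G) * t⁻¹) * x⁻¹
    rw [← hxt]; group
  -- the quotient is cyclic
  have hcyc : IsCyclic (W ⧸ N) := by
    haveI : IsCyclic (Subgroup.zpowers k) := inferInstance
    have hnK : ∀ s ∈ S, ∀ g ∈ Subgroup.zpowers k, s * g * s⁻¹ ∈ Subgroup.zpowers k := hSnk
    let ψ := H43.conjHom (Subgroup.zpowers k) S hnK
    have hA : IsCyclic (MulAut (Subgroup.zpowers k)) := by
      have eA := IsCyclic.mulAutMulEquiv (Subgroup.zpowers k)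
      rcases (Nat.dvd_prime hb.prime).1 (orderOf_dvd_of_pow_eq_one hb.pow) with h | h
      · rw [← Nat.card_zpowers] at h
        rw [h] at eA
        exact (MulEquiv.isCyclic eA).2 inferInstance
      · rw [← Nat.card_zpowers] at h
        rw [h] at eA
        exact (MulEquiv.isCyclic eA).2 inferInstance
    haveI : IsCyclic (S ⧸ ψ.ker) :=
      (MulEquiv.isCyclic (QuotientGroup.quotientKerEquivRange ψ)).2 inferInstance
    let π : S →* W ⧸ N := (QuotientGroup.mk' N).comp (Subgroup.inclusion le_sup_right)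
    have hker : ψ.ker ≤ π.ker := by
      intro s hs
      rw [MonoidHom.mem_ker, MonoidHom.comp_apply, QuotientGroup.mk'_apply, QuotientGroup.eq_one_iff]
      refine Subgroup.mem_sup_right (Subgroup.mem_inf.2 ⟨s.2, ?_⟩)
      refine Subgroup.mem_centralizer_iff.2 fun x hx => ?_
      have h1 := congrArg Subtype.val (DFunLike.congr_fun (MonoidHom.mem_ker.1 hs) ⟨x, hx⟩)
      exact (mul_inv_eq_iff_eq_mul.1 (h1 : (s : G) * x * (s : G)⁻¹ = x)).symm
    refine isCyclic_of_surjective (QuotientGroup.lift ψ.ker π hker) fun w => ?_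
    obtain ⟨w, rfl⟩ := QuotientGroup.mk'_surjective N w
    obtain ⟨x, hx, s, hs, hxs⟩ := exists_mul_of_mem_sup hSE w.2
    refine ⟨QuotientGroup.mk ⟨s, hs⟩, ?_⟩
    show QuotientGroup.mk' N ⟨s, _⟩ = QuotientGroup.mk' N w
    rw [QuotientGroup.mk'_eq_mk']
    have hs' : s ∈ W := Subgroup.mem_sup_right hs
    refine ⟨⟨s⁻¹ * x * s, W.mul_mem (W.mul_mem (W.inv_mem hs') (Subgroup.mem_sup_left hx)) hs'⟩,
      ?_, ?_⟩
    · exact Subgroup.mem_sup_left ((Subgroup.mem_normalizer_iff''.1 (hSE hs) x).1 hx)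
    · refine Subtype.ext ?_
      show s * (s⁻¹ * x * s) = (w : G)
      rw [← hxs]; group
  obtain ⟨φ, hφ, hres⟩ := S0886.result N hcyc (fun n => χ.1 (e n))
    (H56.isIrrCharacter_comp_equiv χ.2 e) hinv
  refine ⟨extend W φ, isCharOn_extend W (H26.isCharacter_of_irr hφ), ?_, ?_⟩
  · have hz' : z ∈ E ⊔ T := Subgroup.mem_sup_left hb.good.mem
    rw [extend_mk W φ (hNW hz'), extend_mk W φ W.one_mem]
    have h1 := hres ⟨⟨z, hNW hz'⟩, hz'⟩
    have h2 := hres 1
    rw [h1]
    show _ = -φ (1 : W)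
    rw [show φ (1 : W) = χ.1 (e 1) from h2, map_one]
    exact hχ.sign
  · rw [extend_mk W φ W.one_mem]
    show φ (1 : W) ^ 2 * 2 = _
    rw [show φ (1 : W) = χ.1 (e 1) from hres 1, map_one]
    exact hχ.degree

end Cfsg.Agent.H41.ExtraExt
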