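import Mathlib
import Cfsg.Prelude.Def_Characters
import Cfsg.Agent.H26.CharBasic
import Cfsg.Agent.H26.CharOrtho
import Cfsg.Agent.H42.Central
import Cfsg.Agent.H43.CharTools

/-!
# Extending the faithful character of an extraspecial subgroup: basic notions

`Good z E` says that `E` is a `2`-subgroup with centre and derived subgroup inside `⟨z⟩`, `z` an
involution. Such a group has a unique irreducible character with central character `-1`; it vanishes
off `⟨z⟩` and the square of its degree is `|E|/2`.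
-/

set_option autoImplicit false

open scoped ComplexConjugate commutatorElement

namespace Cfsg.Agent.H41.ExtraExt

universe u

variable {G : Type u} [Group G]

/-- A `2`-subgroup with centre and commutators inside the group of order two generated by `z`. -/
structure Good (z : G) (E : Subgroup G) : Prop where
  mem : z ∈ E
  ne : z ≠ 1
  sq : z ^ 2 = 1
  comm : ∀ x ∈ E, ∀ y ∈ E, ⁅x, y⁆ ∈ Subgroup.zpowers z
  center : ∀ x ∈ E, (∀ y ∈ E, x * y = y * x) → x ∈ Subgroup.zpowers z
  pgroup : IsPGroup 2 E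

/-- A function on `G` restricting to a character of a subgroup. -/
def IsCharOn (H : Subgroup G) (f : G → ℂ) : Prop := Cfsg.IsCharacter H fun x : H => f x

theorem IsCharOn.mono {H K : Subgroup G} {f : G → ℂ} (h : IsCharOn K f) (hle : H ≤ K) :
    IsCharOn H f :=
  H26.isCharacter_comp h (Subgroup.inclusion hle)

/-- A function of `G` extending a given function on a subgroup. -/
noncomputable def extend (H : Subgroup G) (φ : H → ℂ) (g : G) : ℂ :=
  open Classical in if h : g ∈ H then φ ⟨g, h⟩ else 0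

theorem extend_apply (H : Subgroup G) (φ : H → ℂ) (x : H) : extend H φ x = φ x := by
  rw [extend, dif_pos x.2]

theorem extend_mk (H : Subgroup G) (φ : H → ℂ) {g : G} (hg : g ∈ H) :
    extend H φ g = φ ⟨g, hg⟩ := by
  rw [extend, dif_pos hg]

theorem isCharOn_extend (H : Subgroup G) {φ : H → ℂ} (h : Cfsg.IsCharacter H φ) :
    IsCharOn H (extend H φ) := by
  simpa only [IsCharOn, extend_apply] using h

/-- The sign extension of the faithful character of `E` over `E ⊔ S`. -/
def Ext (z : G) (E S : Subgroup G) : Prop :=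
  ∃ f : G → ℂ, IsCharOn (E ⊔ S) f ∧ f z = -f 1 ∧ f 1 ^ 2 * 2 = (Nat.card E : ℂ)

theorem mem_zpowers_cases {z x : G} (hz : z ^ 2 = 1) (hx : x ∈ Subgroup.zpowers z) :
    x = 1 ∨ x = z := by
  obtain ⟨i, rfl⟩ := hx
  rcases Int.even_or_odd i with ⟨j, rfl⟩ | ⟨j, rfl⟩
  · left
    show z ^ (j + j) = 1
    rw [← two_mul, zpow_mul, zpow_ofNat, hz, one_zpow]
  · right
    show z ^ (2 * j + 1) = z
    rw [zpow_add, zpow_mul, zpow_ofNat, hz, one_zpow, one_mul, zpow_one]

theorem orderOf_eq_two {z : G} (h1 : z ≠ 1) (h2 : z ^ 2 = 1) : orderOf z = 2 :=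
  orderOf_eq_prime h2 h1

theorem card_zpowers_two {z : G} (h1 : z ≠ 1) (h2 : z ^ 2 = 1) :
    Nat.card (Subgroup.zpowers z) = 2 := by
  rw [Nat.card_zpowers, orderOf_eq_two h1 h2]

variable [Finite G] {z : G} {E : Subgroup G}

/-- A central involution acts by a sign. -/
theorem sign_cases {H : Type*} [Group H] [Finite H] (χ : Cfsg.IrrCharacter H) {w : H}
    (hw : w ∈ Subgroup.center H) (h2 : w ^ 2 = 1) :
    (χ.1 w = χ.1 1 ∧ ∀ g, χ.1 (w * g) = χ.1 g) ∨ (χ.1 w = -χ.1 1 ∧ ∀ g, χ.1 (w * g) = -χ.1 g) := by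
  have hne := H26.irr_one_ne_zero χ
  have h := H42.irr_central_mul χ hw
  have hsq : (χ.1 w / χ.1 1) ^ 2 = 1 := by
    have h1 := h w
    rw [← sq, h2, div_mul_eq_mul_div, eq_div_iff hne] at h1
    rw [div_pow, div_eq_one_iff_eq (pow_ne_zero _ hne), sq, sq, h1]
  rcases sq_eq_one_iff.1 hsq with hc | hc
  · refine Or.inl ⟨?_, fun g => by rw [h g, hc, one_mul]⟩
    rwa [div_eq_one_iff_eq hne] at hc
  · refine Or.inr ⟨?_, fun g => by rw [h g, hc, neg_one_mul]⟩
    rw [div_eq_iff hne] at hc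
    rw [hc, neg_one_mul]

theorem Good.center_mem (hE : Good z E) (hz : z ∈ Subgroup.center G) :
    (⟨z, hE.mem⟩ : E) ∈ Subgroup.center E :=
  Subgroup.mem_center_iff.2 fun g => Subtype.ext (Subgroup.mem_center_iff.1 hz g)

/-- The irreducible characters of `E` with central character `-1`. -/
theorem Good.irr_props (hE : Good z E) (hz : z ∈ Subgroup.center G) (θ : Cfsg.IrrCharacter E)
    (hθ : θ.1 ⟨z, hE.mem⟩ = -θ.1 1) :
    (∀ x : E, (x : G) ∉ Subgroup.zpowers z → θ.1 x = 0) ∧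
      θ.1 1 ^ 2 * 2 = (Nat.card E : ℂ) := by
  classical
  haveI := Fintype.ofFinite G
  haveI := Fintype.ofFinite E
  set w : E := ⟨z, hE.mem⟩ with hw
  have hwc := hE.center_mem hz
  have hw2 : w ^ 2 = 1 := Subtype.ext hE.sq
  have hne := H26.irr_one_ne_zero θ
  have hneg : ∀ g, θ.1 (w * g) = -θ.1 g := by
    rcases sign_cases θ hwc hw2 with ⟨h, -⟩ | ⟨-, h⟩
    · exact absurd (h.symm.trans hθ) fun h' => hne (self_eq_neg.1 h')
    · exact h
  have hvan : ∀ x : E, (x : G) ∉ Subgroup.zpowers z → θ.1 x = 0 := by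
    intro x hx
    by_contra hv
    refine hx (hE.center x x.2 fun y hy => ?_)
    rcases mem_zpowers_cases hE.sq (hE.comm y hy x x.2) with h | h
    · exact (commutatorElement_eq_one_iff_mul_comm.1 h).symm
    · exfalso
      have h1 : (⟨y, hy⟩ : E) * x * (⟨y, hy⟩ : E)⁻¹ = w * x := Subtype.ext (by
        show y * (x : G) * y⁻¹ = z * x
        rw [← h, commutatorElement_def]; group)
      have h2 := H26.irr_conj θ x ⟨y, hy⟩
      rw [h1, hneg] at h2
      exact hv (neg_eq_self.1 h2)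
  refine ⟨hvan, ?_⟩
  have hsum := H43.sum_mul_conj θ θ
  rw [if_pos rfl] at hsum
  have hpair : ∑ g : E, θ.1 g * conj (θ.1 g) = ∑ g ∈ ({1, w} : Finset E), θ.1 g * conj (θ.1 g) :=
    (Finset.sum_subset (Finset.subset_univ _) fun g _ hg => by
      rw [hvan g fun hm => hg ?_, zero_mul]
      rcases mem_zpowers_cases hE.sq hm with h | h
      · simp [Subtype.ext_iff, h]
      · simp [hw, Subtype.ext_iff, h]).symm
  rw [hpair, Finset.sum_pair (fun h => hE.ne (congrArg Subtype.val h).symm), hθ] at hsum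
  obtain ⟨n, hn⟩ := H26.exists_nat_char_one (H26.irr_isCharacter θ)
  rw [hn, map_neg, Complex.conj_natCast] at hsum
  rw [hn, ← hsum]
  ring

/-- A character of `E` of the right degree and central sign is irreducible. -/
theorem Good.irreducible (hE : Good z E) (hz : z ∈ Subgroup.center G) {φ : E → ℂ}
    (hφ : Cfsg.IsCharacter E φ) (hsign : φ ⟨z, hE.mem⟩ = -φ 1)
    (hdeg : φ 1 ^ 2 * 2 = (Nat.card E : ℂ)) :
    Cfsg.IsIrrCharacter E φ ∧ ∀ x : E, (x : G) ∉ Subgroup.zpowers z → φ x = 0 := by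
  classical
  haveI := Fintype.ofFinite G
  haveI := Fintype.ofFinite E
  set w : E := ⟨z, hE.mem⟩ with hw
  have hwc := hE.center_mem hz
  have hw2 : w ^ 2 = 1 := Subtype.ext hE.sq
  have hdec := H43.eq_sum_mult hφ
  have happ : ∀ x, φ x = ∑ θ : Cfsg.IrrCharacter E, (H43.mult φ θ : ℂ) * θ.1 x := fun x => by
    have h := congrFun hdec x
    simp only [Finset.sum_apply, Pi.smul_apply, smul_eq_mul] at h
    exact h
  -- constituents have central character `-1`
  have hneg : ∀ θ : Cfsg.IrrCharacter E, H43.mult φ θ ≠ 0 → θ.1 w = -θ.1 1 := by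
    intro θ hm
    choose n hn using fun θ : Cfsg.IrrCharacter E => H26.exists_nat_char_one (H26.irr_isCharacter θ)
    have h0 : ∑ θ : Cfsg.IrrCharacter E, (H43.mult φ θ : ℂ) * (θ.1 w + θ.1 1) = 0 := by
      simp_rw [mul_add, Finset.sum_add_distrib, ← happ, hsign, neg_add_cancel]
    have h1 : ∀ θ : Cfsg.IrrCharacter E, (H43.mult φ θ : ℂ) * (θ.1 w + θ.1 1) =
        ((H43.mult φ θ * (if θ.1 w = -θ.1 1 then 0 else 2 * n θ) : ℕ) : ℂ) := by
      intro θ
      rcases sign_cases θ hwc hw2 with ⟨h, -⟩ | ⟨h, -⟩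
      · rw [if_neg (fun h' => H26.irr_one_ne_zero θ (self_eq_neg.1 (h.symm.trans h'))), h, hn θ]
        push_cast; ring
      · rw [if_pos h, h]; simp
    simp_rw [h1, ← Nat.cast_sum, Nat.cast_eq_zero, Finset.sum_eq_zero_iff] at h0
    by_contra hc
    have h2 := h0 θ (Finset.mem_univ θ)
    rw [if_neg hc] at h2
    rcases mul_eq_zero.1 h2 with h3 | h3
    · exact hm h3
    · have : n θ ≠ 0 := fun h4 => H26.irr_one_ne_zero θ (by rw [hn θ, h4, Nat.cast_zero])
      omega
  obtain ⟨d, hd⟩ := H26.exists_nat_char_one hφ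
  choose n hn using fun θ : Cfsg.IrrCharacter E => H26.exists_nat_char_one (H26.irr_isCharacter θ)
  have hnd : ∀ θ : Cfsg.IrrCharacter E, H43.mult φ θ ≠ 0 → n θ = d := by
    intro θ hm
    have h := (hE.irr_props hz θ (hneg θ hm)).2
    rw [hn θ, ← hdeg, hd] at h
    have h' : n θ ^ 2 * 2 = d ^ 2 * 2 := by exact_mod_cast h
    exact Nat.pow_left_injective two_ne_zero (Nat.mul_right_cancel two_pos h')
  have hd0 : d ≠ 0 := by
    intro h0
    rw [hd, h0] at hdeg
    simp [Nat.card_pos.ne', eq_comm] at hdeg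
  have hsum : ∑ θ : Cfsg.IrrCharacter E, H43.mult φ θ = 1 := by
    have h := happ 1
    have h' : ∑ θ : Cfsg.IrrCharacter E, (H43.mult φ θ : ℂ) * θ.1 1 =
        ((∑ θ : Cfsg.IrrCharacter E, H43.mult φ θ : ℕ) : ℂ) * d := by
      rw [Nat.cast_sum, Finset.sum_mul]
      refine Finset.sum_congr rfl fun θ _ => ?_
      by_cases hm : H43.mult φ θ = 0
      · simp [hm]
      · rw [hn θ, hnd θ hm]
    rw [h', hd] at h
    have h2 : ((∑ θ : Cfsg.IrrCharacter E, H43.mult φ θ : ℕ) : ℂ) = 1 :=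
      mul_right_cancel₀ (Nat.cast_ne_zero.2 hd0) (by rw [one_mul]; exact h.symm)
    exact_mod_cast h2
  obtain ⟨θ, -, hθ⟩ : ∃ θ ∈ (Finset.univ : Finset (Cfsg.IrrCharacter E)), H43.mult φ θ ≠ 0 := by
    by_contra hcon
    push Not at hcon
    rw [Finset.sum_eq_zero hcon] at hsum
    exact zero_ne_one hsum
  have hφθ : φ = θ.1 := by
    funext x
    rw [happ x, Finset.sum_eq_single θ]
    · have : H43.mult φ θ = 1 := le_antisymm
        (hsum ▸ Finset.single_le_sum (fun _ _ => Nat.zero_le _) (Finset.mem_univ θ))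
        (Nat.pos_of_ne_zero hθ)
      rw [this, Nat.cast_one, one_mul]
    · intro ψ _ hψ
      have : H43.mult φ ψ = 0 := by
        by_contra h
        have h2 := Finset.add_le_sum (f := fun θ => H43.mult φ θ) (fun _ _ => Nat.zero_le _)
          (Finset.mem_univ θ) (Finset.mem_univ ψ) hψ.symm
        rw [hsum] at h2
        have := Nat.pos_of_ne_zero hθ
        have := Nat.pos_of_ne_zero h
        omega
      rw [this, Nat.cast_zero, zero_mul]
    · exact fun h => absurd (Finset.mem_univ θ) h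
  rw [hφθ]
  exact ⟨θ.2, (hE.irr_props hz θ (hneg θ hθ)).1⟩

/-- Two irreducible characters of `E` with central character `-1` are equal. -/
theorem Good.eq_of_sign (hE : Good z E) (hz : z ∈ Subgroup.center G) (θ ψ : Cfsg.IrrCharacter E)
    (hθ : θ.1 ⟨z, hE.mem⟩ = -θ.1 1) (hψ : ψ.1 ⟨z, hE.mem⟩ = -ψ.1 1) : θ = ψ := by
  refine Subtype.ext (funext fun x => ?_)
  have hdeg : θ.1 1 = ψ.1 1 := by
    obtain ⟨a, ha⟩ := H26.exists_nat_char_one (H26.irr_isCharacter θ)
    obtain ⟨b, hb⟩ := H26.exists_nat_char_one (H26.irr_isCharacter ψ)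
    have h := (hE.irr_props hz θ hθ).2.trans (hE.irr_props hz ψ hψ).2.symm
    rw [ha, hb] at h
    have h' : a ^ 2 * 2 = b ^ 2 * 2 := by exact_mod_cast h
    rw [ha, hb, Nat.pow_left_injective two_ne_zero (Nat.mul_right_cancel two_pos h')]
  by_cases hx : (x : G) ∈ Subgroup.zpowers z
  · rcases mem_zpowers_cases hE.sq hx with h | h
    · rw [show x = 1 from Subtype.ext h, hdeg]
    · rw [show x = ⟨z, hE.mem⟩ from Subtype.ext h, hθ, hψ, hdeg]
  · rw [(hE.irr_props hz θ hθ).1 x hx, (hE.irr_props hz ψ hψ).1 x hx]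

end Cfsg.Agent.H41.ExtraExt
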