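import Cfsg.Agent.H41.ExtraExt.Basic
import Cfsg.Agent.H25.CharValues
import Cfsg.Agent.H43.SubgroupAction
import Cfsg.Agent.S0886

/-!
# Products of extensions over a central decomposition

If `E` is a central product of `E₁` and `E₂`, both normalised by `S`, then extensions on `E₁S` and
`E₂S` multiply to one on `ES`; when an element of `S` outside a subgroup of index two interchanges
the factors, the product of conjugate extensions is invariant and extends.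
-/

set_option autoImplicit false

open scoped ComplexConjugate

attribute [local instance 10000] Fintype.ofFinite

namespace Cfsg.Agent.H41.ExtraExt

universe u

/-- A character constant on the kernel of a surjection comes from the target. -/
theorem exists_descend {P Q : Type*} [Group P] [Finite P] [Group Q] (π : P →* Q)
    (hπ : Function.Surjective π) {φ : P → ℂ} (hφ : Cfsg.IsCharacter P φ)
    (hker : ∀ x, π x = 1 → φ x = φ 1) :
    ∃ ψ : Q → ℂ, Cfsg.IsCharacter Q ψ ∧ ∀ x, ψ (π x) = φ x := by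
  obtain ⟨n, ρ, e⟩ := hφ
  have hle : π.ker ≤ MonoidHom.ker ρ := fun x hx => by
    have h := hker x hx
    rw [← e, ρ.char_one, H25.char_eq_degree_iff] at h
    exact h
  let σ : Representation ℂ Q (Fin n → ℂ) :=
    (QuotientGroup.lift π.ker ρ hle).comp
      (QuotientGroup.quotientKerEquivOfSurjective π hπ).symm.toMonoidHom
  refine ⟨σ.character, ⟨n, σ, rfl⟩, fun x => ?_⟩
  have h : (QuotientGroup.quotientKerEquivOfSurjective π hπ).symm (π x) = QuotientGroup.mk x := by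
    rw [MulEquiv.symm_apply_eq]; rfl
  have h2 : σ (π x) = ρ x := by
    show QuotientGroup.lift π.ker ρ hle
      ((QuotientGroup.quotientKerEquivOfSurjective π hπ).symm (π x)) = ρ x
    rw [h]; rfl
  rw [← e]
  show LinearMap.trace ℂ _ (σ (π x)) = LinearMap.trace ℂ _ (ρ x)
  rw [h2]

/-- A character restricting irreducibly is irreducible. -/
theorem isIrr_of_res {N D : Type*} [Group N] [Finite N] [Group D] [Finite D] (j : D →* N)
    {φ : N → ℂ} (hφ : Cfsg.IsCharacter N φ) (h : Cfsg.IsIrrCharacter D fun d => φ (j d)) :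
    Cfsg.IsIrrCharacter N φ := by
  classical
  set θ : Cfsg.IrrCharacter D := ⟨_, h⟩ with hθ
  let n : Cfsg.IrrCharacter N → ℕ := fun η => Cfsg.charDegree η.1
  let d : Cfsg.IrrCharacter D → ℕ := fun η => Cfsg.charDegree η.1
  have hn : ∀ η, η.1 1 = (n η : ℂ) := fun η => H43.irr_charDegree_spec η
  have hd : ∀ η, η.1 1 = (d η : ℂ) := fun η => H43.irr_charDegree_spec η
  have hn0 : ∀ η, n η ≠ 0 := fun η h0 =>
    H26.irr_one_ne_zero η (by rw [hn η, h0, Nat.cast_zero])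
  have hdec := H43.mult_comp j hφ θ
  have h1 : H43.mult (fun d => φ (j d)) θ = 1 := by
    refine H43.mult_eq_of_classInner ?_
    rw [Nat.cast_one]
    show Cfsg.classInner θ.1 θ.1 = 1
    rw [H26.classInner_irr, if_pos rfl]
  rw [h1] at hdec
  obtain ⟨η, -, hη⟩ : ∃ η ∈ (Finset.univ : Finset (Cfsg.IrrCharacter N)),
      H43.mult φ η * H43.mult (fun d => η.1 (j d)) θ ≠ 0 := by
    by_contra hcon
    push Not at hcon
    rw [Finset.sum_eq_zero hcon] at hdec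
    exact one_ne_zero hdec
  obtain ⟨hη1, hη2⟩ := mul_ne_zero_iff.1 hη
  have hle : d θ ≤ n η := by
    have h2 := H43.apply_one_eq_sum_mult (H26.isCharacter_comp (H26.irr_isCharacter η) j)
    rw [Function.comp_apply, map_one, hn η] at h2
    simp_rw [← Nat.cast_mul, ← Nat.cast_sum] at h2
    replace h2 := Nat.cast_inj.1 h2
    refine le_trans ?_ (h2 ▸ Finset.single_le_sum (f := fun δ => _ * d δ)
      (fun _ _ => Nat.zero_le _) (Finset.mem_univ θ))
    exact Nat.le_mul_of_pos_left _ (Nat.pos_of_ne_zero hη2)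
  have hsum : d θ = ∑ ζ : Cfsg.IrrCharacter N, H43.mult φ ζ * n ζ := by
    have h2 := H43.apply_one_eq_sum_mult hφ
    simp_rw [← Nat.cast_mul, ← Nat.cast_sum] at h2
    have h3 : φ 1 = (d θ : ℂ) := by
      rw [← hd θ]; show φ 1 = φ (j 1); rw [map_one]
    rw [h3] at h2
    exact_mod_cast h2
  have hm1 : H43.mult φ η = 1 := by
    have h2 := Finset.single_le_sum (f := fun ζ => H43.mult φ ζ * n ζ)
      (fun _ _ => Nat.zero_le _) (Finset.mem_univ η)
    rw [← hsum] at h2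
    by_contra hne
    have h4 : 2 * n η ≤ H43.mult φ η * n η := Nat.mul_le_mul_right _ (by omega)
    have := hn0 η
    omega
  have hrest : ∀ ζ, ζ ≠ η → H43.mult φ ζ = 0 := by
    intro ζ hζ
    by_contra h0
    have h2 := Finset.add_le_sum (f := fun ζ => H43.mult φ ζ * n ζ) (fun _ _ => Nat.zero_le _)
      (Finset.mem_univ η) (Finset.mem_univ ζ) hζ.symm
    rw [← hsum, hm1, one_mul] at h2
    have : 1 * 1 ≤ H43.mult φ ζ * n ζ :=
      Nat.mul_le_mul (Nat.pos_of_ne_zero h0) (Nat.pos_of_ne_zero (hn0 ζ))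
    omega
  have : φ = η.1 := by
    rw [H43.eq_sum_mult hφ, Finset.sum_eq_single η (fun ζ _ hζ => by
      rw [hrest ζ hζ, Nat.cast_zero, zero_smul]) (fun h => absurd (Finset.mem_univ η) h), hm1,
      Nat.cast_one, one_smul]
  rw [this]
  exact η.2

variable {G : Type u} [Group G] [Finite G] {z : G} {E E₁ E₂ S : Subgroup G}

/-- The product of extensions over a central product. -/
theorem exists_product (hz2 : z ^ 2 = 1) (hcomm : ∀ a ∈ E₁, ∀ b ∈ E₂, a * b = b * a)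
    (hint : E₁ ⊓ E₂ ≤ Subgroup.zpowers z) (hn₁ : S ≤ Subgroup.normalizer (E₁ : Set G))
    (hn₂ : S ≤ Subgroup.normalizer (E₂ : Set G)) (hdisj : (E₁ ⊔ E₂) ⊓ S = ⊥)
    {f₁ f₂ : G → ℂ} (hf₁ : IsCharOn (E₁ ⊔ S) f₁) (hf₂ : IsCharOn (E₂ ⊔ S) f₂)
    (hs₁ : f₁ z = -f₁ 1) (hs₂ : f₂ z = -f₂ 1) :
    ∃ f : G → ℂ, IsCharOn (E₁ ⊔ E₂ ⊔ S) f ∧
      ∀ a ∈ E₁, ∀ b ∈ E₂, ∀ s ∈ S, f (a * b * s) = f₁ (a * s) * f₂ (b * s) := by
  have hm₁ := Subgroup.le_normalizer_iff.1 hn₁
  have hm₂ := Subgroup.le_normalizer_iff.1 hn₂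
  let c₁ := H43.conjHom E₁ S hm₁
  let c₂ := H43.conjHom E₂ S hm₂
  let φ : S →* MulAut (E₁ × E₂) := MonoidHom.mk' (fun s => MulEquiv.prodCongr (c₁ s) (c₂ s))
    fun s t => MulEquiv.ext fun x => Prod.ext
      (DFunLike.congr_fun (map_mul c₁ s t) x.1) (DFunLike.congr_fun (map_mul c₂ s t) x.2)
  let ι : E₁ × E₂ →* G := MonoidHom.noncommCoprod E₁.subtype E₂.subtype
    fun a b => hcomm a a.2 b b.2
  let π : (E₁ × E₂) ⋊[φ] S →* G := SemidirectProduct.lift ι S.subtype fun s => by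
    refine MonoidHom.ext fun x => ?_
    show ((c₁ s x.1 : E₁) : G) * (c₂ s x.2 : E₂) = (s : G) * (x.1 * x.2) * (s : G)⁻¹
    rw [H43.conjHom_coe, H43.conjHom_coe]; group
  let π₁ : (E₁ × E₂) ⋊[φ] S →* G :=
    SemidirectProduct.lift (E₁.subtype.comp (MonoidHom.fst _ _)) S.subtype fun s => by
      refine MonoidHom.ext fun x => ?_
      exact H43.conjHom_coe E₁ S hm₁ s x.1
  let π₂ : (E₁ × E₂) ⋊[φ] S →* G :=
    SemidirectProduct.lift (E₂.subtype.comp (MonoidHom.snd _ _)) S.subtype fun s => by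
      refine MonoidHom.ext fun x => ?_
      exact H43.conjHom_coe E₂ S hm₂ s x.2
  have hπx : ∀ x : (E₁ × E₂) ⋊[φ] S, π x = x.left.1 * x.left.2 * x.right := fun x => rfl
  have hπ₁x : ∀ x : (E₁ × E₂) ⋊[φ] S, π₁ x = x.left.1 * x.right := fun x => rfl
  have hπ₂x : ∀ x : (E₁ × E₂) ⋊[φ] S, π₂ x = x.left.2 * x.right := fun x => rfl
  have hr₁ : ∀ x, π₁ x ∈ E₁ ⊔ S := fun x => by
    rw [hπ₁x]; exact Subgroup.mul_mem_sup x.left.1.2 x.right.2
  have hr₂ : ∀ x, π₂ x ∈ E₂ ⊔ S := fun x => by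
    rw [hπ₂x]; exact Subgroup.mul_mem_sup x.left.2.2 x.right.2
  haveI : Finite ((E₁ × E₂) ⋊[φ] S) := Finite.of_equiv _ SemidirectProduct.equivProd.symm
  have hΦ : Cfsg.IsCharacter ((E₁ × E₂) ⋊[φ] S) fun x => f₁ (π₁ x) * f₂ (π₂ x) :=
    H26.isCharacter_mul (H26.isCharacter_comp hf₁ (π₁.codRestrict _ hr₁))
      (H26.isCharacter_comp hf₂ (π₂.codRestrict _ hr₂))
  have hrange : π.range = E₁ ⊔ E₂ ⊔ S := by
    refine le_antisymm ?_ (sup_le (sup_le ?_ ?_) ?_)
    · rintro _ ⟨x, rfl⟩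
      rw [hπx]
      exact Subgroup.mul_mem_sup (Subgroup.mul_mem_sup x.left.1.2 x.left.2.2) x.right.2
    · intro a ha
      exact ⟨SemidirectProduct.inl (⟨a, ha⟩, 1), by rw [hπx]; simp⟩
    · intro b hb
      exact ⟨SemidirectProduct.inl (1, ⟨b, hb⟩), by rw [hπx]; simp⟩
    · intro s hs
      exact ⟨SemidirectProduct.inr ⟨s, hs⟩, by rw [hπx]; simp⟩
  have hmem : ∀ x, π x ∈ E₁ ⊔ E₂ ⊔ S := fun x => hrange ▸ ⟨x, rfl⟩
  obtain ⟨ψ, hψ, hψe⟩ := exists_descend (π.codRestrict _ hmem) (fun y => by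
      obtain ⟨x, hx⟩ : (y : G) ∈ π.range := hrange.symm ▸ y.2
      exact ⟨x, Subtype.ext hx⟩) hΦ (fun x hx => by
    have hx' : (x.left.1 : G) * x.left.2 * x.right = 1 := by
      rw [← hπx]; exact congrArg Subtype.val hx
    have hs : (x.right : G) = 1 := by
      have : (x.right : G) ∈ (E₁ ⊔ E₂) ⊓ S := ⟨by
        rw [← inv_eq_of_mul_eq_one_right hx']
        exact Subgroup.inv_mem _ (Subgroup.mul_mem_sup x.left.1.2 x.left.2.2), x.right.2⟩
      rwa [hdisj, Subgroup.mem_bot] at this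
    rw [hs, mul_one] at hx'
    have ha : (x.left.1 : G) ∈ E₁ ⊓ E₂ := ⟨x.left.1.2, by
      rw [eq_inv_of_mul_eq_one_left hx']; exact E₂.inv_mem x.left.2.2⟩
    show f₁ (π₁ x) * f₂ (π₂ x) = f₁ (π₁ 1) * f₂ (π₂ 1)
    rw [hπ₁x, hπ₂x, hs, mul_one, mul_one, map_one, map_one, eq_inv_of_mul_eq_one_right hx']
    rcases mem_zpowers_cases hz2 (hint ha) with h | h <;> rw [h]
    · rw [inv_one]
    · rw [show z⁻¹ = z from inv_eq_of_mul_eq_one_right (by rw [← sq, hz2]), hs₁, hs₂]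
      ring)
  refine ⟨extend _ ψ, isCharOn_extend _ hψ, fun a ha b hb s hs => ?_⟩
  have h := hψe (SemidirectProduct.inl (⟨a, ha⟩, ⟨b, hb⟩) * SemidirectProduct.inr ⟨s, hs⟩)
  have hm : a * b * s ∈ E₁ ⊔ E₂ ⊔ S :=
    Subgroup.mul_mem_sup (Subgroup.mul_mem_sup ha hb) hs
  rw [extend_mk _ _ hm]
  simp only [hπ₁x, hπ₂x] at h
  convert h using 1
  · exact congrArg ψ (Subtype.ext (by simp [hπx]))
  · simp

/-- Two extensions give one on the central product. -/
theorem ext_product (hE₁ : Good z E₁) (hcomm : ∀ a ∈ E₁, ∀ b ∈ E₂, a * b = b * a)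
    (hint : E₁ ⊓ E₂ ≤ Subgroup.zpowers z) (hzE₂ : z ∈ E₂)
    (hn₁ : S ≤ Subgroup.normalizer (E₁ : Set G)) (hn₂ : S ≤ Subgroup.normalizer (E₂ : Set G))
    (hE : E = E₁ ⊔ E₂) (hcard : Nat.card E * 2 = Nat.card E₁ * Nat.card E₂) (hdisj : E ⊓ S = ⊥)
    (h₁ : Ext z E₁ S) (h₂ : Ext z E₂ S) : Ext z E S := by
  obtain ⟨f₁, hf₁, hs₁, hd₁⟩ := h₁
  obtain ⟨f₂, hf₂, hs₂, hd₂⟩ := h₂
  subst hE
  obtain ⟨f, hf, hv⟩ := exists_product hE₁.sq hcomm hint hn₁ hn₂ hdisj hf₁ hf₂ hs₁ hs₂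
  have h1 : f 1 = f₁ 1 * f₂ 1 := by
    have := hv 1 E₁.one_mem 1 E₂.one_mem 1 S.one_mem
    simpa using this
  refine ⟨f, hf, ?_, ?_⟩
  · have := hv z hE₁.mem 1 E₂.one_mem 1 S.one_mem
    rw [mul_one, mul_one, one_mul] at this
    rw [this, hs₁, h1, neg_mul]
  · have hc : (Nat.card (E₁ ⊔ E₂ : Subgroup G) : ℂ) * 2 =
        (Nat.card E₁ : ℂ) * (Nat.card E₂ : ℂ) := by exact_mod_cast hcard
    refine mul_right_cancel₀ (b := (2 : ℂ)) two_ne_zero ?_
    rw [hc, ← hd₁, ← hd₂, h1]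
    ring

/-- An extension on a factor whose conjugate is the other factor gives one on the product. -/
theorem ext_swap (hE : Good z E) (hz : z ∈ Subgroup.center G) {M : Subgroup G} (hMS : M ≤ S)
    (hM2 : ∀ a ∈ S, ∀ b ∈ S, a ∉ M → b ∉ M → a * b ∈ M) {s : G} (hs : s ∈ S) (hsM : s ∉ M)
    (hSE : S ≤ Subgroup.normalizer (E : Set G))
    (hn₁ : M ≤ Subgroup.normalizer (E₁ : Set G))
    (hswap : ∀ a ∈ E₁, s * a * s⁻¹ ∈ E₂) (hswap' : ∀ b ∈ E₂, s * b * s⁻¹ ∈ E₁)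
    (hcomm : ∀ a ∈ E₁, ∀ b ∈ E₂, a * b = b * a) (hint : E₁ ⊓ E₂ ≤ Subgroup.zpowers z)
    (hz₁ : z ∈ E₁) (hz₂ : z ∈ E₂) (hEeq : E = E₁ ⊔ E₂)
    (hcard : Nat.card E * 2 = Nat.card E₁ * Nat.card E₂) (hdisj : E ⊓ S = ⊥)
    (h₁ : Ext z E₁ M) : Ext z E S := by
  classical
  obtain ⟨f₁, hf₁, hs₁, hd₁⟩ := h₁
  have hconjM : ∀ a ∈ S, ∀ m ∈ M, a * m * a⁻¹ ∈ M := by
    intro a ha m hm
    by_cases haM : a ∈ M
    · exact M.mul_mem (M.mul_mem haM hm) (M.inv_mem haM)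
    · refine hM2 (a * m) (S.mul_mem ha (hMS hm)) a⁻¹ (S.inv_mem ha) (fun h => haM ?_)
        (fun h => haM (by simpa using M.inv_mem h))
      simpa using M.mul_mem h (M.inv_mem hm)
  have hs2 : s * s ∈ M := hM2 s hs s hs hsM hsM
  have hn₁' : ∀ m ∈ M, ∀ a ∈ E₁, m * a * m⁻¹ ∈ E₁ := Subgroup.le_normalizer_iff.1 hn₁
  have hback : ∀ b ∈ E₂, s⁻¹ * b * s ∈ E₁ := by
    intro b hb
    have h := hn₁' _ (M.inv_mem hs2) _ (hswap' b hb)
    convert h using 1
    group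
  have hbackM : ∀ m ∈ M, s⁻¹ * m * s ∈ M := fun m hm => by
    simpa using hconjM s⁻¹ (S.inv_mem hs) m hm
  have hn₂ : M ≤ Subgroup.normalizer (E₂ : Set G) := by
    rw [Subgroup.le_normalizer_iff]
    intro m hm b hb
    have h := hswap _ (hn₁' _ (hbackM m hm) _ (hback b hb))
    convert h using 1
    group
  let c : (E₂ ⊔ M : Subgroup G) →* (E₁ ⊔ M : Subgroup G) :=
    ((MulAut.conj s⁻¹).toMonoidHom.comp (E₂ ⊔ M).subtype).codRestrict _ fun x => by
      have hle : E₂ ⊔ M ≤ (E₁ ⊔ M).comap (MulAut.conj s⁻¹).toMonoidHom :=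
        sup_le (fun b hb => Subgroup.mem_sup_left (by simpa using hback b hb))
          (fun m hm => Subgroup.mem_sup_right (by simpa using hbackM m hm))
      exact hle x.2
  have hf₂ : IsCharOn (E₂ ⊔ M) fun x => f₁ (s⁻¹ * x * s) := by
    have h := H26.isCharacter_comp hf₁ c
    simpa [IsCharOn, c, Function.comp_def] using h
  have hsz : s⁻¹ * z * s = z := by
    rw [mul_assoc, ← Subgroup.mem_center_iff.1 hz s, inv_mul_cancel_left]
  have hs₂ : f₁ (s⁻¹ * z * s) = -f₁ (s⁻¹ * 1 * s) := by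
    rw [hsz, mul_one, inv_mul_cancel, hs₁]
  obtain ⟨f, hf, hv⟩ := exists_product hE.sq hcomm hint hn₁ hn₂
    (le_bot_iff.1 (hdisj ▸ inf_le_inf (hEeq ▸ le_rfl) hMS)) hf₁ hf₂ hs₁ hs₂
  rw [← hEeq] at hf
  set W := E ⊔ S with hW
  have hNW : E ⊔ M ≤ W := sup_le_sup_left hMS E
  have hMEn : M ≤ Subgroup.normalizer (E : Set G) := hMS.trans hSE
  have hdec : ∀ x ∈ E ⊔ M, ∃ a ∈ E₁, ∃ b ∈ E₂, ∃ m ∈ M, a * b * m = x := by
    intro x hx
    obtain ⟨e, he, m, hm, rfl⟩ : ∃ e ∈ E, ∃ m ∈ M, e * m = x := by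
      have h1 : x ∈ ((E ⊔ M : Subgroup G) : Set G) := hx
      rw [Subgroup.coe_mul_of_right_le_normalizer_left E M hMEn] at h1
      exact Set.mem_mul.1 h1
    have hle : E₂ ≤ Subgroup.normalizer (E₁ : Set G) := by
      rw [Subgroup.le_normalizer_iff]
      intro b hb a ha
      rwa [← hcomm a ha b hb, mul_inv_cancel_right]
    rw [hEeq] at he
    have h1 : e ∈ ((E₁ ⊔ E₂ : Subgroup G) : Set G) := he
    rw [Subgroup.coe_mul_of_right_le_normalizer_left E₁ E₂ hle] at h1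
    obtain ⟨a, ha, b, hb, rfl⟩ := Set.mem_mul.1 h1
    exact ⟨a, ha, b, hb, m, hm, rfl⟩
  have hclass : ∀ m ∈ E₁ ⊔ M, ∀ y ∈ E₁ ⊔ M, f₁ (m * y * m⁻¹) = f₁ y := fun m hm y hy =>
    H26.isClassFunction_of_isCharacter hf₁ ⟨y, hy⟩ ⟨m, hm⟩
  -- the product is invariant under `s`
  have hinv_s : ∀ x ∈ E ⊔ M, f (s * x * s⁻¹) = f x := by
    intro x hx
    obtain ⟨a, ha, b, hb, m, hm, rfl⟩ := hdec x hx
    have e1 : s * (a * b * m) * s⁻¹ = s * b * s⁻¹ * (s * a * s⁻¹) * (s * m * s⁻¹) := by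
      rw [hcomm a ha b hb]; group
    rw [e1, hv _ (hswap' b hb) _ (hswap a ha) _ (hconjM s hs m hm), hv a ha b hb m hm]
    show f₁ _ * f₁ _ = f₁ _ * f₁ _
    have e2 : s⁻¹ * (s * a * s⁻¹ * (s * m * s⁻¹)) * s = a * m := by group
    have e3 : s * b * s⁻¹ * (s * m * s⁻¹) = s * s * (s⁻¹ * (b * m) * s) * (s * s)⁻¹ := by group
    have hmem : s⁻¹ * (b * m) * s ∈ E₁ ⊔ M := by
      rw [show s⁻¹ * (b * m) * s = s⁻¹ * b * s * (s⁻¹ * m * s) by group]
      exact Subgroup.mul_mem_sup (hback b hb) (hbackM m hm)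
    rw [e2, e3, hclass _ (Subgroup.mem_sup_right hs2) _ hmem, mul_comm]
  -- normality and invariance in `W`
  set N := (E ⊔ M).subgroupOf W with hN
  have hSn : S ≤ Subgroup.normalizer ((E ⊔ M : Subgroup G) : Set G) := by
    rw [Subgroup.le_normalizer_iff]
    intro a ha g hg
    have hle : E ⊔ M ≤ (E ⊔ M).comap (MulAut.conj a).toMonoidHom :=
      sup_le (fun e he => Subgroup.mem_sup_left
          ((Subgroup.mem_normalizer_iff.1 (hSE ha) e).1 he))
        (fun m hm => Subgroup.mem_sup_right (hconjM a ha m hm))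
    exact hle hg
  haveI : N.Normal := Subgroup.normal_subgroupOf_of_le_normalizer
    (sup_le (le_sup_left.trans Subgroup.le_normalizer) hSn)
  let e : N ≃* (E ⊔ M : Subgroup G) := Subgroup.subgroupOfEquivOfLe hNW
  have hfN : Cfsg.IsCharacter N (fun n : N => f ((n : W) : G)) :=
    H26.isCharacter_comp hf e.toMonoidHom
  have h1 : f 1 = f₁ 1 * f₁ 1 := by
    have := hv 1 E₁.one_mem 1 E₂.one_mem 1 M.one_mem
    simpa using this
  have hfz : f z = -f 1 := by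
    have := hv z hz₁ 1 E₂.one_mem 1 M.one_mem
    simp only [mul_one, one_mul, inv_mul_cancel] at this
    rw [this, hs₁, h1, neg_mul]
  have hcard₂ : Nat.card E₂ = Nat.card E₁ := by
    have hmap : E₂ = E₁.map (MulAut.conj s).toMonoidHom := by
      refine le_antisymm (fun b hb => ⟨s⁻¹ * b * s, hback b hb, by simp [mul_assoc]⟩) ?_
      rintro _ ⟨a, ha, rfl⟩
      exact hswap a ha
    rw [hmap]
    exact (Nat.card_congr (Subgroup.equivMapOfInjective _ _
      (MulAut.conj s).injective).toEquiv).symm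
  have hdeg : f 1 ^ 2 * 2 = (Nat.card E : ℂ) := by
    have hc : (Nat.card E : ℂ) * 2 = (Nat.card E₁ : ℂ) * (Nat.card E₁ : ℂ) := by
      rw [hcard₂] at hcard; exact_mod_cast hcard
    refine mul_right_cancel₀ (b := (2 : ℂ)) two_ne_zero ?_
    rw [hc, ← hd₁, h1]
    ring
  have hirr : Cfsg.IsIrrCharacter N (fun n : N => f ((n : W) : G)) := by
    refine isIrr_of_res ((Subgroup.inclusion (le_sup_left : E ≤ W)).codRestrict N
      fun x => Subgroup.mem_sup_left x.2) hfN ?_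
    exact (hE.irreducible hz (IsCharOn.mono hf le_sup_left) hfz hdeg).1
  have hinv : ∀ (g : W) (n : N), (fun n : N => f ((n : W) : G))
      ⟨g * n * g⁻¹, ‹N.Normal›.conj_mem (n : W) n.2 g⟩ = f ((n : W) : G) := by
    intro g n
    show f ((g : G) * ((n : W) : G) * (g : G)⁻¹) = _
    have hin : ∀ x ∈ E ⊔ M, ∀ y ∈ E ⊔ M, f (y * x * y⁻¹) = f x := fun x hx y hy =>
      H26.isClassFunction_of_isCharacter hf ⟨x, hx⟩ ⟨y, hy⟩
    have hgen : W ≤ Subgroup.closure ((E ⊔ M : Subgroup G) ∪ ({s} : Set G)) := by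
      refine sup_le (fun x hx => Subgroup.subset_closure (Or.inl (Subgroup.mem_sup_left hx)))
        fun a ha => ?_
      by_cases haM : a ∈ M
      · exact Subgroup.subset_closure (Or.inl (Subgroup.mem_sup_right haM))
      · have := Subgroup.mul_mem _ (Subgroup.subset_closure (k := ((E ⊔ M : Subgroup G) : Set G) ∪ {s})
          (Or.inl (Subgroup.mem_sup_right (hM2 a ha s⁻¹ (S.inv_mem hs) haM
            fun h => hsM (by simpa using M.inv_mem h)))))
          (Subgroup.subset_closure (Or.inr rfl))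
        simpa using this
    have hg : (g : G) ∈ Subgroup.closure (((E ⊔ M : Subgroup G) : Set G) ∪ {s}) := hgen g.2
    have hkey : ∀ y ∈ Subgroup.closure (((E ⊔ M : Subgroup G) : Set G) ∪ {s}),
        ∀ x ∈ E ⊔ M, y * x * y⁻¹ ∈ E ⊔ M ∧ f (y * x * y⁻¹) = f x := by
      intro y hy
      induction hy using Subgroup.closure_induction with
      | mem y hy =>
        intro x hx
        rcases hy with hy | hy
        · exact ⟨Subgroup.mul_mem _ (Subgroup.mul_mem _ hy hx) (Subgroup.inv_mem _ hy),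
            hin x hx y hy⟩
        · rw [Set.mem_singleton_iff.1 hy]
          exact ⟨(Subgroup.mem_normalizer_iff.1 (hSn hs) x).1 hx, hinv_s x hx⟩
      | one => intro x hx; simpa using hx
      | mul a b _ _ iha ihb =>
        intro x hx
        obtain ⟨h1, h2⟩ := ihb x hx
        obtain ⟨h3, h4⟩ := iha _ h1
        rw [show a * b * x * (a * b)⁻¹ = a * (b * x * b⁻¹) * a⁻¹ by group]
        exact ⟨h3, h4.trans h2⟩
      | inv a hacl iha =>
        intro x hx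
        have hstab : Subgroup.closure (((E ⊔ M : Subgroup G) : Set G) ∪ {s}) ≤
            Subgroup.normalizer ((E ⊔ M : Subgroup G) : Set G) := by
          rw [Subgroup.closure_le]
          rintro y (hy | hy)
          · exact Subgroup.le_normalizer hy
          · rw [Set.mem_singleton_iff.1 hy]; exact hSn hs
        have h1 : a⁻¹ * x * a⁻¹⁻¹ ∈ E ⊔ M :=
          (Subgroup.mem_normalizer_iff.1 (hstab (Subgroup.inv_mem _ hacl)) x).1 hx
        refine ⟨h1, ?_⟩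
        have h := (iha _ h1).2
        rw [show a * (a⁻¹ * x * a⁻¹⁻¹) * a⁻¹ = x by group] at h
        exact h.symm
    exact (hkey _ hg _ n.2).2
  have hcyc : IsCyclic (W ⧸ N) := by
    refine ⟨⟨QuotientGroup.mk' N ⟨s, Subgroup.mem_sup_right hs⟩, fun w => ?_⟩⟩
    obtain ⟨w, rfl⟩ := QuotientGroup.mk'_surjective N w
    have h1 : (w : G) ∈ ((E ⊔ S : Subgroup G) : Set G) := w.2
    rw [Subgroup.coe_mul_of_right_le_normalizer_left E S hSE] at h1
    obtain ⟨e, he, a, ha, hea⟩ := Set.mem_mul.1 h1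
    by_cases haM : a ∈ M
    · refine ⟨0, ?_⟩
      show (QuotientGroup.mk' N _) ^ (0 : ℤ) = _
      rw [zpow_zero, eq_comm, QuotientGroup.mk'_apply, QuotientGroup.eq_one_iff]
      show (w : G) ∈ E ⊔ M
      rw [← hea]; exact Subgroup.mul_mem_sup he haM
    · refine ⟨1, ?_⟩
      show (QuotientGroup.mk' N _) ^ (1 : ℤ) = _
      rw [zpow_one, eq_comm, ← mul_inv_eq_one, ← map_inv, ← map_mul, QuotientGroup.mk'_apply,
        QuotientGroup.eq_one_iff]
      show (w : G) * s⁻¹ ∈ E ⊔ M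
      rw [← hea, mul_assoc]
      exact Subgroup.mul_mem_sup he (hM2 a ha s⁻¹ (S.inv_mem hs) haM
        fun h => hsM (by simpa using M.inv_mem h))
  obtain ⟨χ, hχ, hres⟩ := S0886.result N hcyc _ hirr hinv
  refine ⟨extend W χ, isCharOn_extend W (H26.isCharacter_of_irr hχ), ?_, ?_⟩
  · have hz' : z ∈ E ⊔ M := Subgroup.mem_sup_left hE.mem
    rw [extend_mk W χ (hNW hz'), extend_mk W χ W.one_mem]
    have h2 := hres ⟨⟨z, hNW hz'⟩, hz'⟩
    have h3 := hres 1
    rw [h2]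
    show f z = -χ (1 : W)
    rw [show χ (1 : W) = f 1 from h3]
    exact hfz
  · rw [extend_mk W χ W.one_mem]
    show χ (1 : W) ^ 2 * 2 = _
    rw [show χ (1 : W) = f 1 from hres 1]
    exact hdeg

end Cfsg.Agent.H41.ExtraExt
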