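import Cfsg.Agent.H41.ExtraExt.Base
import Cfsg.Agent.H41.ExtraExt.Product
import Cfsg.Agent.H19.MinimalNormal
import Cfsg.Agent.H20.FixedPoints
import Cfsg.Agent.S3734

/-!
# The faithful character of an extraspecial subgroup extends over a `2`-group

If a solvable group `K` of odd order, normalised by the `2`-group `S`, fixes only `⟨z⟩` in `E`, then
`E` splits into central factors permuted by `S` down to the fixed-point-free case of prime order.
-/

set_option autoImplicit false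

open scoped commutatorElement

attribute [local instance 10000] Fintype.ofFinite

namespace Cfsg.Agent.H41.ExtraExt

universe u

variable {G : Type u} [Group G] {z : G} {E E₁ E₂ S K : Subgroup G}

/-- An element fixed by `a` commutes with the commutators with `a`. -/
theorem commute_commutator_of_fixed (hE : Good z E) (hz : z ∈ Subgroup.center G) {c : G}
    (hc : c ∈ E) {A : Subgroup G} (hA : A ≤ Subgroup.normalizer (E : Set G))
    (hfix : ∀ a ∈ A, a * c = c * a) {Y : Subgroup G} (hY : Y ≤ E) :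
    ∀ d ∈ ⁅Y, A⁆, c * d = d * c := by
  have key : ⁅Y, A⁆ ≤ Subgroup.centralizer {c} := by
    rw [Subgroup.commutator_le]
    intro e he a ha
    rw [Subgroup.mem_centralizer_singleton_iff]
    have hε : ⁅c, e⁆ ∈ Subgroup.zpowers z := hE.comm c hc e (hY he)
    have hcen : ∀ g, ⁅c, e⁆ * g = g * ⁅c, e⁆ := fun g => by
      obtain ⟨i, hi⟩ := hε
      rw [← hi]
      exact (Subgroup.mem_center_iff.1 ((Subgroup.center G).zpow_mem hz i) g).symm
    have h1 : c * e * c⁻¹ = ⁅c, e⁆ * e := by rw [commutatorElement_def]; group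
    have h2 : c * (a * e * a⁻¹) * c⁻¹ = ⁅c, e⁆ * (a * e * a⁻¹) := by
      calc c * (a * e * a⁻¹) * c⁻¹ = (c * a) * e * (c * a)⁻¹ := by group
        _ = (a * c) * e * (a * c)⁻¹ := by rw [hfix a ha]
        _ = a * (c * e * c⁻¹) * a⁻¹ := by group
        _ = (a * ⁅c, e⁆) * e * a⁻¹ := by rw [h1]; group
        _ = ⁅c, e⁆ * a * e * a⁻¹ := by rw [← hcen a]
        _ = ⁅c, e⁆ * (a * e * a⁻¹) := by group
    have h3 : c * ⁅e, a⁆ * c⁻¹ = ⁅e, a⁆ := by
      calc c * ⁅e, a⁆ * c⁻¹ = c * e * c⁻¹ * (c * (a * e * a⁻¹) * c⁻¹)⁻¹ := by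
            rw [commutatorElement_def]; group
        _ = ⁅c, e⁆ * (e * (a * e * a⁻¹)⁻¹) * ⁅c, e⁆⁻¹ := by rw [h1, h2]; group
        _ = ⁅e, a⁆ := by
            rw [hcen, mul_inv_cancel_right, commutatorElement_def]; group
    exact (mul_inv_eq_iff_eq_mul.1 h3).symm
  exact fun d hd => (Subgroup.mem_centralizer_singleton_iff.1 (key hd)).symm

variable [Finite G]

/-- The consequences of a splitting into two commuting factors. -/
theorem split_facts (hE : Good z E) (hz₁ : z ∈ E₁) (hz₂ : z ∈ E₂)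
    (hcomm : ∀ a ∈ E₁, ∀ b ∈ E₂, a * b = b * a) (hsup : E₁ ⊔ E₂ = E)
    (hne₁ : ¬ E₁ ≤ Subgroup.zpowers z) (hne₂ : ¬ E₂ ≤ Subgroup.zpowers z) :
    Good z E₁ ∧ Good z E₂ ∧ E₁ ⊓ E₂ ≤ Subgroup.zpowers z ∧
      Nat.card E * 2 = Nat.card E₁ * Nat.card E₂ ∧
      Nat.card E₁ < Nat.card E ∧ Nat.card E₂ < Nat.card E := by
  have h1 : E₁ ≤ E := hsup ▸ le_sup_left
  have h2 : E₂ ≤ E := hsup ▸ le_sup_right
  have hcentre : ∀ x ∈ E, (∀ a ∈ E₁, x * a = a * x) → (∀ b ∈ E₂, x * b = b * x) →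
      x ∈ Subgroup.zpowers z := by
    intro x hx ha hb
    refine hE.center x hx fun y hy => ?_
    have hle : E₁ ⊔ E₂ ≤ Subgroup.centralizer ({x} : Set G) :=
      sup_le (fun a haa => Subgroup.mem_centralizer_singleton_iff.2 (ha a haa).symm)
        (fun b hbb => Subgroup.mem_centralizer_singleton_iff.2 (hb b hbb).symm)
    exact (Subgroup.mem_centralizer_singleton_iff.1 (hle (hsup.symm ▸ hy))).symm
  have hint : E₁ ⊓ E₂ ≤ Subgroup.zpowers z := fun x hx =>
    hcentre x (h1 hx.1) (fun a ha => (hcomm a ha x hx.2).symm) (fun b hb => hcomm x hx.1 b hb)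
  have hn : E₂ ≤ Subgroup.normalizer (E₁ : Set G) := by
    rw [Subgroup.le_normalizer_iff]
    intro b hb a ha
    rwa [← hcomm a ha b hb, mul_inv_cancel_right]
  have hint' : Nat.card (E₁ ⊓ E₂ : Subgroup G) = 2 := by
    rw [le_antisymm hint (Subgroup.zpowers_le.2 ⟨hz₁, hz₂⟩), card_zpowers_two hE.ne hE.sq]
  have hcard : Nat.card E * 2 = Nat.card E₁ * Nat.card E₂ := by
    have e1 := Subgroup.relIndex_mul_relIndex ⊥ E₁ E bot_le h1
    have e2 := Subgroup.relIndex_mul_relIndex ⊥ (E₁ ⊓ E₂) E₂ bot_le inf_le_right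
    rw [Subgroup.relIndex_bot_left, Subgroup.relIndex_bot_left] at e1
    rw [Subgroup.relIndex_bot_left, Subgroup.relIndex_bot_left, hint',
      Subgroup.inf_relIndex_right] at e2
    have e3 : E₁.relIndex E = E₁.relIndex E₂ := by
      rw [← hsup, sup_comm]
      exact relIndex_sup_of_normalizes hn
    rw [← e1, ← e2, e3]; ring
  refine ⟨⟨hz₁, hE.ne, hE.sq, fun x hx y hy => hE.comm x (h1 hx) y (h1 hy), fun x hx h =>
      hcentre x (h1 hx) h (fun b hb => hcomm x hx b hb), hE.pgroup.to_le h1⟩,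
    ⟨hz₂, hE.ne, hE.sq, fun x hx y hy => hE.comm x (h2 hx) y (h2 hy), fun x hx h =>
      hcentre x (h2 hx) (fun a ha => (hcomm a ha x hx).symm) h, hE.pgroup.to_le h2⟩,
    hint, hcard, ?_, ?_⟩
  all_goals
    refine lt_of_le_of_ne (Nat.le_of_dvd Nat.card_pos (Subgroup.card_dvd_of_le ‹_›)) fun heq => ?_
  · refine hne₂ fun b hb => ?_
    have he : E₁ = E := Subgroup.eq_of_le_of_card_ge h1 heq.ge
    exact hint ⟨he.symm ▸ h2 hb, hb⟩
  · refine hne₁ fun a ha => ?_
    have he : E₂ = E := Subgroup.eq_of_le_of_card_ge h2 heq.ge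
    exact hint ⟨ha, he.symm ▸ h1 ha⟩

/-- The extension when `E` is `⟨z⟩`. -/
theorem ext_trivial (hE : Good z E) (hz : z ∈ Subgroup.center G) (hS : IsPGroup 2 S)
    (hSE : S ≤ Subgroup.normalizer (E : Set G)) (hdisj : E ⊓ S = ⊥)
    (htriv : E ≤ Subgroup.zpowers z) : Ext z E S := by
  have hzS : z ∉ S := fun h => hE.ne (by
    have : z ∈ E ⊓ S := ⟨hE.mem, h⟩
    rwa [hdisj, Subgroup.mem_bot] at this)
  refine ext_of_base (k := 1) (q := 3) ⟨hE, hz, Nat.prime_three, by norm_num, one_pow 3,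
    Subgroup.one_mem _, fun x hx _ => htriv hx⟩ hS hSE hzS fun s _ => ?_
  simp

/-- The conjugate of a subgroup. -/
def conjB (g : G) (B : Subgroup G) : Subgroup G := B.map (MulAut.conj g).toMonoidHom

omit [Finite G] in
theorem conjB_mul (g h : G) (B : Subgroup G) : conjB (g * h) B = conjB g (conjB h B) := by
  rw [conjB, conjB, conjB, Subgroup.map_map]
  congr 1
  ext x
  simp [mul_assoc]

omit [Finite G] in
theorem conjB_one (B : Subgroup G) : conjB 1 B = B := by
  rw [conjB]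
  convert Subgroup.map_id B using 2
  ext x
  simp

/-- The fixed points of `B` in `E`. -/
def fixE (E B : Subgroup G) : Subgroup G := E ⊓ Subgroup.centralizer (B : Set G)

/-- The factor of a family of hyperplanes. -/
def factor (z : G) (E : Subgroup G) (I : Set (Subgroup G)) : Subgroup G :=
  Subgroup.zpowers z ⊔ ⨆ B ∈ I, fixE E B

omit [Finite G] in
theorem fixE_conj {g : G} (hg : g ∈ Subgroup.normalizer (E : Set G)) {B : Subgroup G} {x : G}
    (hx : x ∈ fixE E B) : g * x * g⁻¹ ∈ fixE E (conjB g B) := by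
  refine ⟨(Subgroup.mem_normalizer_iff.1 hg x).1 hx.1, Subgroup.mem_centralizer_iff.2 ?_⟩
  rintro _ ⟨b, hb, rfl⟩
  have h := Subgroup.mem_centralizer_iff.1 hx.2 b hb
  show g * b * g⁻¹ * (g * x * g⁻¹) = g * x * g⁻¹ * (g * b * g⁻¹)
  calc g * b * g⁻¹ * (g * x * g⁻¹) = g * (b * x) * g⁻¹ := by group
    _ = g * (x * b) * g⁻¹ := by rw [h]
    _ = _ := by group

omit [Finite G] in
theorem factor_conj (hz : z ∈ Subgroup.center G) {g : G}
    (hg : g ∈ Subgroup.normalizer (E : Set G)) {I J : Set (Subgroup G)}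
    (hIJ : ∀ B ∈ I, conjB g B ∈ J) : ∀ x ∈ factor z E I, g * x * g⁻¹ ∈ factor z E J := by
  have hle : factor z E I ≤ (factor z E J).comap (MulAut.conj g).toMonoidHom := by
    refine sup_le (Subgroup.zpowers_le.2 ?_) (iSup₂_le fun B hB x hx => ?_)
    · show g * z * g⁻¹ ∈ factor z E J
      rw [Subgroup.mem_center_iff.1 hz g, mul_inv_cancel_right]
      exact Subgroup.mem_sup_left (Subgroup.mem_zpowers z)
    · exact Subgroup.mem_sup_right
        (le_iSup₂ (f := fun B (_ : B ∈ J) => fixE E B) _ (hIJ B hB) (fixE_conj hg hx))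
  exact fun x hx => hle hx

omit [Finite G] in
theorem factor_le_normalizer (hz : z ∈ Subgroup.center G) {T : Subgroup G}
    (hT : T ≤ Subgroup.normalizer (E : Set G)) {I : Set (Subgroup G)}
    (hI : ∀ t ∈ T, ∀ B ∈ I, conjB t B ∈ I) : T ≤ Subgroup.normalizer (factor z E I : Set G) :=
  Subgroup.le_normalizer_iff.2 fun t ht => factor_conj hz (hT ht) (hI t ht)

/-- The statement proved by induction. -/
def Goal (n : ℕ) : Prop :=
  ∀ {G : Type u} [Group G] [Finite G] (z : G) (E S K : Subgroup G),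
    Nat.card E + Nat.card K = n → Good z E → z ∈ Subgroup.center G → IsPGroup 2 S →
    S ≤ Subgroup.normalizer (E : Set G) → E ⊓ S = ⊥ → Odd (Nat.card K) → Group.IsSolvable K →
    K ≤ Subgroup.normalizer (E : Set G) → S ≤ Subgroup.normalizer (K : Set G) →
    (∀ x ∈ E, (∀ k ∈ K, k * x = x * k) → x ∈ Subgroup.zpowers z) → Ext z E S

/-- The step: an elementary abelian group of operators with only trivial fixed points. -/
theorem ext_abelian {n : ℕ} (ih : ∀ m < n, Goal.{u} m) (hn : Nat.card E + Nat.card K ≤ n)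
    (hE : Good z E) (hz : z ∈ Subgroup.center G) (hS : IsPGroup 2 S)
    (hSE : S ≤ Subgroup.normalizer (E : Set G)) (hdisj : E ⊓ S = ⊥) (K₀ : Subgroup G)
    (hK₀K : K₀ ≤ K) {q : ℕ} (hq : q.Prime) (hq2 : q ≠ 2) [hab : IsMulCommutative K₀]
    (hexp : ∀ a ∈ K₀, a ^ q = 1) (hodd : Odd (Nat.card K₀))
    (hK₀E : K₀ ≤ Subgroup.normalizer (E : Set G))
    (hSK₀ : S ≤ Subgroup.normalizer (K₀ : Set G))
    (hfaith : ∀ a ∈ K₀, (∀ e ∈ E, a * e = e * a) → a = 1)
    (hfix : ∀ x ∈ E, (∀ k ∈ K₀, k * x = x * k) → x ∈ Subgroup.zpowers z) : Ext z E S := by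
  classical
  haveI := Fact.mk hq
  haveI : Fact (Nat.Prime 2) := ⟨Nat.prime_two⟩
  have hcop : ∀ {A Y : Subgroup G}, A ≤ K₀ → Y ≤ E →
      (Nat.card A).Coprime (Nat.card Y) := by
    intro A Y hA hY
    obtain ⟨k, hk⟩ := IsPGroup.iff_card.1 (hE.pgroup.to_le hY)
    rw [hk]
    exact Nat.Coprime.pow_right _ ((Nat.prime_two.coprime_iff_not_dvd.2 fun h =>
      Nat.not_even_iff_odd.2 hodd (even_iff_two_dvd.2 (h.trans (Subgroup.card_dvd_of_le hA)))).symm)
  have hK₀c : ∀ a ∈ K₀, ∀ b ∈ K₀, a * b = b * a := fun a ha b hb =>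
    congrArg Subtype.val (hab.is_comm.comm ⟨a, ha⟩ ⟨b, hb⟩)
  have hgen : ∀ {B : Subgroup G}, B ≤ K₀ → B.relIndex K₀ = q → ∀ a ∈ K₀, a ∉ B →
      B ⊔ Subgroup.zpowers a = K₀ := by
    intro B hB hBq a ha haB
    have hle : B ⊔ Subgroup.zpowers a ≤ K₀ := sup_le hB (Subgroup.zpowers_le.2 ha)
    have e := Subgroup.relIndex_mul_relIndex B _ K₀ le_sup_left hle
    rw [hBq] at e
    rcases (Nat.dvd_prime hq).1 (Dvd.intro _ e) with h | h
    · exact absurd (Subgroup.relIndex_eq_one.1 h (Subgroup.mem_sup_right (Subgroup.mem_zpowers a))) haB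
    · rw [h] at e
      exact le_antisymm hle (Subgroup.relIndex_eq_one.1
        (Nat.eq_of_mul_eq_mul_left hq.pos (e.trans (mul_one q).symm)))
  set Bs : Set (Subgroup G) :=
    {B | B ≤ K₀ ∧ B.relIndex K₀ = q ∧ ¬ fixE E B ≤ Subgroup.zpowers z} with hBs
  -- distinct factors commute
  have hcomm : ∀ B ∈ Bs, ∀ B' ∈ Bs, B ≠ B' → ∀ x ∈ fixE E B, ∀ y ∈ fixE E B',
      x * y = y * x := by
    intro B hB B' hB' hne x hx y hy
    obtain ⟨a, haB, haB'⟩ : ∃ a ∈ B, a ∉ B' := by
      by_contra hcon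
      push Not at hcon
      refine hne (Subgroup.eq_of_le_of_card_ge hcon (le_of_eq ?_))
      have e1 := Subgroup.relIndex_mul_relIndex ⊥ B K₀ bot_le hB.1
      have e2 := Subgroup.relIndex_mul_relIndex ⊥ B' K₀ bot_le hB'.1
      rw [Subgroup.relIndex_bot_left, Subgroup.relIndex_bot_left, hB.2.1] at e1
      rw [Subgroup.relIndex_bot_left, Subgroup.relIndex_bot_left, hB'.2.1] at e2
      exact Nat.eq_of_mul_eq_mul_right hq.pos (e2.trans e1.symm)
    set A := Subgroup.zpowers a with hA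
    have hAK : A ≤ K₀ := Subgroup.zpowers_le.2 (hB.1 haB)
    set Y := fixE E B' with hY
    have hAY : A ≤ Subgroup.normalizer (Y : Set G) := by
      rw [Subgroup.le_normalizer_iff]
      intro c hc w hw
      have h := fixE_conj (hK₀E (hAK hc)) hw
      have hconj : conjB c B' = B' := by
        ext v
        constructor
        · rintro ⟨b, hb, rfl⟩
          show c * b * c⁻¹ ∈ B'
          rwa [hK₀c c (hAK hc) b (hB'.1 hb), mul_inv_cancel_right]
        · intro hv
          exact ⟨v, hv, by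
            show c * v * c⁻¹ = v
            rw [hK₀c c (hAK hc) v (hB'.1 hv), mul_inv_cancel_right]⟩
      rwa [hconj] at h
    haveI : Group.IsSolvable A := isSolvable_of_comm fun u v => Subtype.ext
      (hK₀c u (hAK u.2) v (hAK v.2))
    have hdec := H20.commutator_sup_centralizer hAY (hcop hAK inf_le_left) (Or.inl inferInstance)
    have hxA : ∀ c ∈ A, c * x = x * c := fun c hc =>
      Subgroup.mem_centralizer_iff.1 hx.2 c ((Subgroup.zpowers_le.2 haB) hc)
    have hle : ⁅Y, A⁆ ⊔ (Y ⊓ Subgroup.centralizer (A : Set G)) ≤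
        Subgroup.centralizer ({x} : Set G) := by
      refine sup_le (fun d hd => Subgroup.mem_centralizer_singleton_iff.2
        (commute_commutator_of_fixed hE hz hx.1 (hAK.trans hK₀E) hxA inf_le_left d hd).symm) ?_
      intro w hw
      have hwZ : w ∈ Subgroup.zpowers z := by
        refine hfix w hw.1.1 fun k hk => ?_
        have hk' : K₀ ≤ Subgroup.centralizer ({w} : Set G) := by
          rw [← hgen hB'.1 hB'.2.1 a (hB.1 haB) haB']
          refine sup_le (fun b hb => Subgroup.mem_centralizer_singleton_iff.2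
            (Subgroup.mem_centralizer_iff.1 hw.1.2 b hb)) (Subgroup.zpowers_le.2
              (Subgroup.mem_centralizer_singleton_iff.2
                (Subgroup.mem_centralizer_iff.1 hw.2 a (Subgroup.mem_zpowers a))))
        exact Subgroup.mem_centralizer_singleton_iff.1 (hk' hk)
      obtain ⟨i, rfl⟩ := hwZ
      exact Subgroup.mem_centralizer_singleton_iff.2
        (Subgroup.mem_center_iff.1 ((Subgroup.center G).zpow_mem hz i) x).symm
    exact (Subgroup.mem_centralizer_singleton_iff.1 (hle (hdec.symm ▸ hy))).symm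
  -- the factors generate
  have hgenE : E ≤ factor z E Bs := by
    have h := (S3734.result K₀ E hab hK₀E (hcop le_rfl le_rfl)).1
    refine h.symm.trans_le (iSup₂_le ?_)
    rintro B ⟨hB, a, ha, hBa⟩
    by_cases hbig : fixE E B ≤ Subgroup.zpowers z
    · exact hbig.trans le_sup_left
    have hne : B ≠ K₀ := fun he => hbig fun x hx => hfix x hx.1 fun k hk =>
      Subgroup.mem_centralizer_iff.1 hx.2 k (he.symm ▸ hk)
    have haB : a ∉ B := fun h => hne (le_antisymm hB (hBa ▸ sup_le le_rfl (Subgroup.zpowers_le.2 h)))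
    have hBq : B.relIndex K₀ = q := by
      have hn : Subgroup.zpowers a ≤ Subgroup.normalizer (B : Set G) := by
        rw [Subgroup.le_normalizer_iff]
        intro c hc b hb
        rwa [hK₀c c (Subgroup.zpowers_le.2 ha hc) b (hB hb), mul_inv_cancel_right]
      rw [← hBa, sup_comm, relIndex_sup_of_normalizes hn]
      have hd : B.relIndex (Subgroup.zpowers a) ∣ q := by
        have := Subgroup.relIndex_dvd_card B (Subgroup.zpowers a)
        rw [Nat.card_zpowers] at this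
        exact this.trans (orderOf_dvd_of_pow_eq_one (hexp a ha))
      rcases (Nat.dvd_prime hq).1 hd with h | h
      · exact absurd (Subgroup.relIndex_eq_one.1 h (Subgroup.mem_zpowers a)) haB
      · exact h
    exact le_sup_of_le_right (le_iSup₂ (f := fun B (_ : B ∈ Bs) => fixE E B) B ⟨hB, hBq, hbig⟩)
  have hfacE : ∀ I, I ⊆ Bs → factor z E I ≤ E := fun I _ =>
    sup_le (Subgroup.zpowers_le.2 hE.mem) (iSup₂_le fun B _ => inf_le_left)
  have hBsconj : ∀ s ∈ S, ∀ B ∈ Bs, conjB s B ∈ Bs := by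
    intro s hs B hB
    have hK₀c' : conjB s K₀ = K₀ := by
      refine le_antisymm ?_ fun v hv => ⟨s⁻¹ * v * s,
        (Subgroup.mem_normalizer_iff''.1 (hSK₀ hs) v).1 hv, by simp [mul_assoc]⟩
      rintro _ ⟨b, hb, rfl⟩
      exact (Subgroup.mem_normalizer_iff.1 (hSK₀ hs) b).1 hb
    refine ⟨(Subgroup.map_mono hB.1).trans hK₀c'.le, ?_, fun hle => hB.2.2 fun x hx => ?_⟩
    · rw [← hK₀c', conjB, conjB, Subgroup.relIndex_map_map_of_injective _ _ (MulAut.conj s).injective]
      exact hB.2.1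
    · obtain ⟨i, hi⟩ := hle (fixE_conj (hSE hs) hx)
      refine ⟨i, ?_⟩
      have hc := Subgroup.mem_center_iff.1 ((Subgroup.center G).zpow_mem hz i) s
      calc z ^ i = s⁻¹ * (s * z ^ i) := by group
        _ = s⁻¹ * (z ^ i * s) := by rw [hc]
        _ = x := by rw [show z ^ i = s * x * s⁻¹ from hi]; group
  -- a splitting of the family
  have hsplit : ∀ I J : Set (Subgroup G), I ⊆ Bs → J ⊆ Bs → Disjoint I J → I ∪ J = Bs →
      I.Nonempty → J.Nonempty →
      Good z (factor z E I) ∧ Good z (factor z E J) ∧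
        (∀ a ∈ factor z E I, ∀ b ∈ factor z E J, a * b = b * a) ∧
        factor z E I ⊔ factor z E J = E ∧
        factor z E I ⊓ factor z E J ≤ Subgroup.zpowers z ∧
        Nat.card E * 2 = Nat.card (factor z E I) * Nat.card (factor z E J) ∧
        Nat.card (factor z E I) < Nat.card E ∧ Nat.card (factor z E J) < Nat.card E := by
    intro I J hI hJ hIJ hU hIne hJne
    have hc : ∀ a ∈ factor z E I, ∀ b ∈ factor z E J, a * b = b * a := by
      have hzc : ∀ W : Subgroup G, Subgroup.zpowers z ≤ Subgroup.centralizer (W : Set G) :=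
        fun W => Subgroup.zpowers_le.2 (Subgroup.mem_centralizer_iff.2 fun w _ =>
          Subgroup.mem_center_iff.1 hz w)
      have hle : factor z E I ≤ Subgroup.centralizer (factor z E J : Set G) := by
        refine sup_le (hzc _) (iSup₂_le fun B hB => Subgroup.le_centralizer_iff.2 ?_)
        refine sup_le (hzc _) (iSup₂_le fun B' hB' y hy => Subgroup.mem_centralizer_iff.2 ?_)
        intro x hx
        exact hcomm B (hI hB) B' (hJ hB') (fun he => Set.disjoint_left.1 hIJ hB (he ▸ hB')) x hx y hy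
      exact fun a ha b hb => (Subgroup.mem_centralizer_iff.1 (hle ha) b hb).symm
    have hs : factor z E I ⊔ factor z E J = E := by
      refine le_antisymm (sup_le (hfacE I hI) (hfacE J hJ)) (hgenE.trans ?_)
      refine sup_le (le_sup_of_le_left le_sup_left) (iSup₂_le fun B hB => ?_)
      rcases (hU.symm ▸ hB : B ∈ I ∪ J) with h | h
      · exact le_sup_of_le_left (le_sup_of_le_right (le_iSup₂ (f := fun B (_ : B ∈ I) => fixE E B) B h))
      · exact le_sup_of_le_right (le_sup_of_le_right (le_iSup₂ (f := fun B (_ : B ∈ J) => fixE E B) B h))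
    have hne : ∀ I, I ⊆ Bs → I.Nonempty → ¬ factor z E I ≤ Subgroup.zpowers z := by
      rintro I hI ⟨B, hB⟩ hle
      exact (hI hB).2.2
        ((le_sup_of_le_right (le_iSup₂ (f := fun B (_ : B ∈ I) => fixE E B) B hB)).trans hle)
    obtain ⟨g1, g2, g3, g4, g5, g6⟩ := split_facts hE (Subgroup.mem_sup_left (Subgroup.mem_zpowers z))
      (Subgroup.mem_sup_left (Subgroup.mem_zpowers z)) hc hs (hne I hI hIne) (hne J hJ hJne)
    exact ⟨g1, g2, hc, hs, g3, g4, g5, g6⟩
  have hK₀solv : Group.IsSolvable K₀ := isSolvable_of_comm fun u v => hab.is_comm.comm u v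
  have hrec : ∀ E' M : Subgroup G, Good z E' → Nat.card E' < Nat.card E → E' ≤ E → M ≤ S →
      M ≤ Subgroup.normalizer (E' : Set G) → K₀ ≤ Subgroup.normalizer (E' : Set G) →
      Ext z E' M := by
    intro E' M hE' hlt hle hMS hME hKE
    have hKle : Nat.card K₀ ≤ Nat.card K := Nat.le_of_dvd Nat.card_pos (Subgroup.card_dvd_of_le hK₀K)
    exact ih _ (by omega) z E' M K₀ rfl hE' hz (hS.to_le hMS) hME
      (le_bot_iff.1 (hdisj ▸ inf_le_inf hle hMS)) hodd hK₀solv hKE (hMS.trans hSK₀)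
      (fun x hx h => hfix x (hle hx) h)
  have hK₀fac : ∀ I ⊆ Bs, K₀ ≤ Subgroup.normalizer (factor z E I : Set G) := by
    intro I hI
    refine factor_le_normalizer hz hK₀E fun c hc B hB => ?_
    have hconj : conjB c B = B := by
      ext v
      constructor
      · rintro ⟨b, hb, rfl⟩
        show c * b * c⁻¹ ∈ B
        rwa [hK₀c c hc b ((hI hB).1 hb), mul_inv_cancel_right]
      · intro hv
        exact ⟨v, hv, by
          show c * v * c⁻¹ = v
          rw [hK₀c c hc v ((hI hB).1 hv), mul_inv_cancel_right]⟩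
    rwa [hconj]
  by_cases hempty : Bs = ∅
  · refine ext_trivial hE hz hS hSE hdisj (hgenE.trans (sup_le le_rfl (iSup₂_le fun B hB => ?_)))
    rw [hempty] at hB
    exact hB.elim
  obtain ⟨B₀, hB₀⟩ := Set.nonempty_iff_ne_empty.2 hempty
  by_cases hone : ∀ B ∈ Bs, B = B₀
  · -- the fixed-point-free case
    have hEB : ∀ e ∈ E, ∀ b ∈ B₀, b * e = e * b := by
      have hle : E ≤ Subgroup.centralizer (B₀ : Set G) := by
        refine hgenE.trans (sup_le (Subgroup.zpowers_le.2 (Subgroup.mem_centralizer_iff.2 fun b _ =>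
          Subgroup.mem_center_iff.1 hz b)) (iSup₂_le fun B hB => ?_))
        rw [hone B hB]; exact inf_le_right
      exact fun e he b hb => Subgroup.mem_centralizer_iff.1 (hle he) b hb
    have hB₀bot : B₀ = ⊥ := (Subgroup.eq_bot_iff_forall _).2 fun b hb =>
      hfaith b (hB₀.1 hb) fun e he => hEB e he b hb
    have hcardK : Nat.card K₀ = q := by
      rw [← hB₀.2.1, hB₀bot, Subgroup.relIndex_bot_left]
    haveI : IsCyclic K₀ := isCyclic_of_prime_card hcardK
    obtain ⟨⟨k, hk⟩, hkgen⟩ := IsCyclic.exists_generator (α := K₀)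
    have hzk : Subgroup.zpowers k = K₀ := by
      refine le_antisymm (Subgroup.zpowers_le.2 hk) fun a ha => ?_
      obtain ⟨i, hi⟩ := hkgen ⟨a, ha⟩
      exact ⟨i, by simpa using congrArg Subtype.val hi⟩
    have hzS : z ∉ S := fun h => hE.ne (by
      have : z ∈ E ⊓ S := ⟨hE.mem, h⟩
      rwa [hdisj, Subgroup.mem_bot] at this)
    refine ext_of_base (k := k) (q := q) ⟨hE, hz, hq, hq2, hexp k hk, hK₀E hk, fun x hx hxk =>
      hfix x hx fun a ha => ?_⟩ hS hSE hzS fun s hs => ?_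
    · obtain ⟨i, rfl⟩ := (hzk.symm ▸ ha : a ∈ Subgroup.zpowers k)
      exact ((Commute.zpow_left (hxk : Commute k x) i)).eq
    · rw [hzk]; exact (Subgroup.mem_normalizer_iff.1 (hSK₀ hs) k).1 hk
  push Not at hone
  -- the orbit of `B₀`
  set O : Set (Subgroup G) := {B | ∃ s ∈ S, conjB s B₀ = B} with hO
  have hOBs : O ⊆ Bs := fun B ⟨s, hs, h⟩ => h ▸ hBsconj s hs B₀ hB₀
  by_cases hOall : O = Bs
  · -- a transitive family: a subgroup of index two
    let Tst : Subgroup S :=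
      { carrier := {s | conjB (s : G) B₀ = B₀}
        one_mem' := conjB_one B₀
        mul_mem' := fun {a b} ha hb => by
          show conjB ((a : G) * b) B₀ = B₀
          rw [conjB_mul, hb, ha]
        inv_mem' := fun {a} ha => by
          show conjB ((a : G)⁻¹) B₀ = B₀
          conv_lhs => rw [← (ha : conjB (a : G) B₀ = B₀)]
          rw [← conjB_mul, inv_mul_cancel, conjB_one] }
    have hTne : Tst ≠ ⊤ := by
      intro h
      obtain ⟨B, hB, hBne⟩ := hone
      obtain ⟨s, hs, rfl⟩ := (hOall ▸ hB : B ∈ O)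
      exact hBne (h.symm ▸ Subgroup.mem_top (⟨s, hs⟩ : S) : (⟨s, hs⟩ : S) ∈ Tst)
    obtain ⟨M₀, hM₀, hTM⟩ := (IsCoatomic.eq_top_or_exists_le_coatom Tst).resolve_left hTne
    obtain ⟨hM₀n, hM₀i, -⟩ := H24.coatom_spec hS hM₀
    haveI := hM₀n
    obtain ⟨s₁, hs₁⟩ : ∃ s₁ : S, s₁ ∉ M₀ := by
      by_contra hcon
      push Not at hcon
      exact hM₀.1 (eq_top_iff.2 fun x _ => hcon x)
    set M := M₀.map S.subtype with hM
    have hMmem : ∀ a : S, (a : G) ∈ M ↔ a ∈ M₀ := fun a =>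
      Subgroup.mem_map_iff_mem S.subtype_injective
    have hMS : M ≤ S := Subgroup.map_subtype_le _
    have hM2 : ∀ a ∈ S, ∀ b ∈ S, a ∉ M → b ∉ M → a * b ∈ M := fun a ha b hb hA hB =>
      (hMmem (⟨a, ha⟩ * ⟨b, hb⟩)).2 ((Subgroup.mul_mem_iff_of_index_two hM₀i).2
        (iff_of_false (fun h => hA ((hMmem ⟨a, ha⟩).2 h)) (fun h => hB ((hMmem ⟨b, hb⟩).2 h))))
    set I : Set (Subgroup G) := {B | ∃ m ∈ M₀, conjB (m : G) B₀ = B} with hI
    set J : Set (Subgroup G) := {B | ∃ m ∈ M₀, conjB ((m * s₁ : S) : G) B₀ = B} with hJ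
    have hIBs : I ⊆ Bs := fun B ⟨m, _, h⟩ => h ▸ hBsconj m m.2 B₀ hB₀
    have hJBs : J ⊆ Bs := fun B ⟨m, _, h⟩ => h ▸ hBsconj _ (m * s₁).2 B₀ hB₀
    have hdis : Disjoint I J := by
      rw [Set.disjoint_left]
      rintro B ⟨m, hm, h⟩ ⟨m', hm', h'⟩
      have hst : m⁻¹ * (m' * s₁) ∈ Tst := by
        show conjB ((m⁻¹ * (m' * s₁) : S) : G) B₀ = B₀
        rw [Subgroup.coe_mul, conjB_mul, h', ← h, ← conjB_mul, Subgroup.coe_inv, inv_mul_cancel,
          conjB_one]
      have h1 := hTM hst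
      rw [← mul_assoc] at h1
      have h2 := M₀.mul_mem (M₀.inv_mem (M₀.mul_mem (M₀.inv_mem hm) hm')) h1
      rw [inv_mul_cancel_left] at h2
      exact hs₁ h2
    have hU : I ∪ J = Bs := by
      refine Set.Subset.antisymm (Set.union_subset hIBs hJBs) fun B hB => ?_
      obtain ⟨s, hs, rfl⟩ := (hOall ▸ hB : B ∈ O)
      by_cases hsM : (⟨s, hs⟩ : S) ∈ M₀
      · exact Or.inl ⟨_, hsM, rfl⟩
      · exact Or.inr ⟨⟨s, hs⟩ * s₁⁻¹, (Subgroup.mul_mem_iff_of_index_two hM₀i).2
          (iff_of_false hsM fun h => hs₁ (by simpa using M₀.inv_mem h)), by rw [inv_mul_cancel_right]⟩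
    have hIne : I.Nonempty := ⟨_, 1, M₀.one_mem, rfl⟩
    have hJne : J.Nonempty := ⟨_, 1, M₀.one_mem, rfl⟩
    obtain ⟨g1, g2, g3, g4, g5, g6, g7, -⟩ := hsplit I J hIBs hJBs hdis hU hIne hJne
    have hMI : ∀ t ∈ M, ∀ B ∈ I, conjB t B ∈ I := by
      rintro _ ⟨t, ht, rfl⟩ B ⟨m, hm, rfl⟩
      exact ⟨t * m, M₀.mul_mem ht hm, by rw [Subgroup.coe_mul, conjB_mul]; rfl⟩
    have hswapI : ∀ B ∈ I, conjB (s₁ : G) B ∈ J := by
      rintro B ⟨m, hm, rfl⟩
      refine ⟨s₁ * m * s₁⁻¹, hM₀n.conj_mem m hm s₁, ?_⟩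
      rw [inv_mul_cancel_right, Subgroup.coe_mul, conjB_mul]
    have hswapJ : ∀ B ∈ J, conjB (s₁ : G) B ∈ I := by
      rintro B ⟨m, hm, rfl⟩
      refine ⟨s₁ * (m * s₁), ?_, by rw [Subgroup.coe_mul, conjB_mul]⟩
      rw [Subgroup.mul_mem_iff_of_index_two hM₀i]
      refine iff_of_false hs₁ fun h => hs₁ ?_
      simpa using M₀.mul_mem (M₀.inv_mem hm) h
    have hn₁ : M ≤ Subgroup.normalizer (factor z E I : Set G) :=
      factor_le_normalizer hz (hMS.trans hSE) hMI
    exact ext_swap hE hz hMS hM2 s₁.2 (fun h => hs₁ ((hMmem s₁).1 h)) hSE hn₁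
      (factor_conj hz (hSE s₁.2) hswapI) (factor_conj hz (hSE s₁.2) hswapJ) g3 g5
      (Subgroup.mem_sup_left (Subgroup.mem_zpowers z)) (Subgroup.mem_sup_left (Subgroup.mem_zpowers z))
      g4.symm g6 hdisj (hrec _ M g1 g7 (hfacE I hIBs) hMS hn₁ (hK₀fac I hIBs))
  · -- two invariant families
    set J := Bs \ O with hJ
    have hJBs : J ⊆ Bs := Set.diff_subset
    have hOne : O.Nonempty := ⟨_, 1, S.one_mem, rfl⟩
    have hJne : J.Nonempty := Set.nonempty_of_not_subset fun h => hOall (Set.Subset.antisymm hOBs h)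
    obtain ⟨g1, g2, g3, g4, g5, g6, g7, g8⟩ := hsplit O J hOBs hJBs Set.disjoint_sdiff_right
      (Set.union_diff_cancel hOBs) hOne hJne
    have hSO : ∀ t ∈ S, ∀ B ∈ O, conjB t B ∈ O := by
      rintro t ht B ⟨s, hs, rfl⟩
      exact ⟨t * s, S.mul_mem ht hs, conjB_mul t s B₀⟩
    have hSJ : ∀ t ∈ S, ∀ B ∈ J, conjB t B ∈ J := by
      rintro t ht B ⟨hB, hBO⟩
      refine ⟨hBsconj t ht B hB, fun h => hBO ?_⟩
      have := hSO t⁻¹ (S.inv_mem ht) _ h
      rwa [← conjB_mul, inv_mul_cancel, conjB_one] at this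
    have hn₁ := factor_le_normalizer hz hSE hSO
    have hn₂ := factor_le_normalizer hz hSE hSJ
    exact ext_product g1 g3 g5 g2.mem hn₁ hn₂ g4.symm g6 hdisj
      (hrec _ S g1 g7 (hfacE O hOBs) le_rfl hn₁ (hK₀fac O hOBs))
      (hrec _ S g2 g8 (hfacE J hJBs) le_rfl hn₂ (hK₀fac J hJBs))

/-- The passage to the quotient by the kernel of the action of `K`. -/
theorem ext_quotient {n : ℕ} (ih : ∀ m < n, Goal.{u} m) (hn : Nat.card E + Nat.card K = n)
    (hE : Good z E) (hz : z ∈ Subgroup.center G) (hS : IsPGroup 2 S)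
    (hSE : S ≤ Subgroup.normalizer (E : Set G)) (hdisj : E ⊓ S = ⊥) (hodd : Odd (Nat.card K))
    (hsolv : Group.IsSolvable K) (hKE : K ≤ Subgroup.normalizer (E : Set G))
    (hSK : S ≤ Subgroup.normalizer (K : Set G))
    (hfix : ∀ x ∈ E, (∀ k ∈ K, k * x = x * k) → x ∈ Subgroup.zpowers z)
    (hL : K ⊓ Subgroup.centralizer (E : Set G) ≠ ⊥) : Ext z E S := by
  classical
  haveI : Fact (Nat.Prime 2) := ⟨Nat.prime_two⟩
  set L := K ⊓ Subgroup.centralizer (E : Set G) with hLdef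
  set A := E ⊔ S ⊔ K with hA
  have hEA : E ≤ A := le_sup_left.trans le_sup_left
  have hSA : S ≤ A := le_sup_right.trans le_sup_left
  have hKA : K ≤ A := le_sup_right
  have hLK : L ≤ K := inf_le_left
  have hAL : A ≤ Subgroup.normalizer (L : Set G) := by
    refine sup_le (sup_le ?_ ?_) ?_ <;> rw [Subgroup.le_normalizer_iff] <;> intro g hg l hl
    · rw [Subgroup.mem_centralizer_iff.1 hl.2 g hg, mul_inv_cancel_right]
      exact hl
    all_goals
      refine ⟨?_, Subgroup.mem_centralizer_iff.2 fun e he => ?_⟩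
    · exact (Subgroup.mem_normalizer_iff.1 (hSK hg) l).1 hl.1
    · have he' := (Subgroup.mem_normalizer_iff''.1 (hSE hg) e).1 he
      calc e * (g * l * g⁻¹) = g * ((g⁻¹ * e * g) * l) * g⁻¹ := by group
        _ = g * (l * (g⁻¹ * e * g)) * g⁻¹ := by rw [Subgroup.mem_centralizer_iff.1 hl.2 _ he']
        _ = g * l * g⁻¹ * e := by group
    · exact K.mul_mem (K.mul_mem hg hl.1) (K.inv_mem hg)
    · have he' := (Subgroup.mem_normalizer_iff''.1 (hKE hg) e).1 he
      calc e * (g * l * g⁻¹) = g * ((g⁻¹ * e * g) * l) * g⁻¹ := by group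
        _ = g * (l * (g⁻¹ * e * g)) * g⁻¹ := by rw [Subgroup.mem_centralizer_iff.1 hl.2 _ he']
        _ = g * l * g⁻¹ * e := by group
  haveI : (L.subgroupOf A).Normal := Subgroup.normal_subgroupOf_of_le_normalizer hAL
  set π := QuotientGroup.mk' (L.subgroupOf A) with hπ
  have hsurj : Function.Surjective π := QuotientGroup.mk'_surjective _
  -- an element of odd order in a `2`-group is trivial
  have hodd1 : ∀ (H : Subgroup G), IsPGroup 2 H → ∀ x ∈ H, x ∈ L → x = 1 := by
    intro H hH x hx hxL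
    obtain ⟨j, hj⟩ := IsPGroup.iff_orderOf.1 hH ⟨x, hx⟩
    rw [Subgroup.orderOf_mk] at hj
    have hd : orderOf x ∣ Nat.card K := Subgroup.orderOf_dvd_natCard K (hLK hxL)
    refine orderOf_eq_one_iff.1 (Nat.eq_one_of_dvd_coprimes (a := 2 ^ j) ?_ (hj ▸ dvd_rfl) hd)
    exact Nat.Coprime.pow_left j (Nat.prime_two.coprime_iff_not_dvd.2 fun h =>
      Nat.not_even_iff_odd.2 hodd (even_iff_two_dvd.2 h))
  have hES : IsPGroup 2 (E ⊔ S : Subgroup G) := hE.pgroup.to_sup_of_normal_left' hS hSE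
  have hinj : ∀ x y : A, (x : G) ∈ E ⊔ S → (y : G) ∈ E ⊔ S → π x = π y → x = y := by
    intro x y hx hy h
    rw [hπ, QuotientGroup.mk'_apply, QuotientGroup.mk'_apply, QuotientGroup.eq,
      Subgroup.mem_subgroupOf] at h
    refine Subtype.ext (inv_mul_eq_one.1 (hodd1 _ hES _ ?_ ?_))
    · exact Subgroup.mul_mem _ (Subgroup.inv_mem _ hx) hy
    · exact h
  -- the images
  set zA : A := ⟨z, hEA hE.mem⟩ with hzA
  set E' := (E.subgroupOf A).map π with hE'
  set S' := (S.subgroupOf A).map π with hS'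
  set K' := (K.subgroupOf A).map π with hK'
  have hmemE : ∀ x : G, ∀ hx : x ∈ E, π ⟨x, hEA hx⟩ ∈ E' := fun x hx => ⟨⟨x, hEA hx⟩, hx, rfl⟩
  have hzp : ∀ x : G, ∀ hx : x ∈ E, π ⟨x, hEA hx⟩ ∈ Subgroup.zpowers (π zA) →
      x ∈ Subgroup.zpowers z := by
    rintro x hx ⟨i, hi⟩
    refine ⟨i, ?_⟩
    have h := hinj (zA ^ i) ⟨x, hEA hx⟩
      (Subgroup.mem_sup_left (by simpa using E.zpow_mem hE.mem i)) (Subgroup.mem_sup_left hx)
      (by rw [map_zpow]; exact hi)
    simpa using congrArg Subtype.val h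
  have hE'good : Good (π zA) E' := by
    refine ⟨hmemE z hE.mem, fun h => hE.ne ?_, ?_, ?_, ?_, (hE.pgroup.comap_subtype (K := A)).map π⟩
    · have h2 := hinj zA 1 (Subgroup.mem_sup_left hE.mem) (Subgroup.one_mem _) (by rw [h, map_one])
      exact congrArg Subtype.val h2
    · rw [← map_pow, show zA ^ 2 = 1 from Subtype.ext hE.sq, map_one]
    · rintro _ ⟨x, hx, rfl⟩ _ ⟨y, hy, rfl⟩
      obtain ⟨i, hi⟩ := hE.comm _ hx _ hy
      refine ⟨i, ?_⟩
      show π zA ^ i = ⁅π x, π y⁆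
      rw [← map_zpow, ← map_commutatorElement]
      exact congrArg π (Subtype.ext (by simpa [commutatorElement_def] using hi))
    · rintro _ ⟨x, hx, rfl⟩ hall
      have hxc : (x : G) ∈ Subgroup.zpowers z := hE.center _ hx fun y hy => by
        have h := hinj (x * ⟨y, hEA hy⟩) (⟨y, hEA hy⟩ * x)
          (Subgroup.mem_sup_left (E.mul_mem hx hy)) (Subgroup.mem_sup_left (E.mul_mem hy hx))
          (by rw [map_mul, map_mul]; exact hall _ (hmemE y hy))
        exact congrArg Subtype.val h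
      obtain ⟨i, hi⟩ := hxc
      refine ⟨i, ?_⟩
      show π zA ^ i = π x
      rw [← map_zpow]
      exact congrArg π (Subtype.ext (by simpa using hi))
  have hzA' : π zA ∈ Subgroup.center (A ⧸ L.subgroupOf A) := by
    rw [Subgroup.mem_center_iff]
    intro g
    obtain ⟨g, rfl⟩ := hsurj g
    rw [← map_mul, ← map_mul]
    exact congrArg π (Subtype.ext (Subgroup.mem_center_iff.1 hz g))
  have hnorm : ∀ {P Q : Subgroup G}, P ≤ A → P ≤ Subgroup.normalizer (Q : Set G) →
      (P.subgroupOf A).map π ≤ Subgroup.normalizer ((Q.subgroupOf A).map π : Set (A ⧸ L.subgroupOf A)) := by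
    intro P Q hP hPQ
    rw [Subgroup.le_normalizer_iff]
    rintro _ ⟨p, hp, rfl⟩ _ ⟨x, hx, rfl⟩
    exact ⟨p * x * p⁻¹, (Subgroup.mem_normalizer_iff.1 (hPQ hp) x).1 hx, by simp⟩
  have hdisj' : E' ⊓ S' = ⊥ := by
    rw [Subgroup.eq_bot_iff_forall]
    rintro _ ⟨⟨x, hx, rfl⟩, y, hy, hyx⟩
    have h := hinj y x (Subgroup.mem_sup_right hy) (Subgroup.mem_sup_left hx) hyx
    have h1 : (x : G) ∈ E ⊓ S := ⟨hx, h ▸ hy⟩
    rw [hdisj, Subgroup.mem_bot] at h1
    rw [show x = 1 from Subtype.ext h1, map_one]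
  have hK'dvd : Nat.card K' ∣ Nat.card K :=
    (Subgroup.card_map_dvd _ π).trans
      (dvd_of_eq (Nat.card_congr (Subgroup.subgroupOfEquivOfLe hKA).toEquiv))
  have hK'lt : Nat.card K' < Nat.card K := by
    have h := Subgroup.relIndex_ker (K := K.subgroupOf A) π
    rw [hπ, QuotientGroup.ker_mk', Subgroup.relIndex_subgroupOf hKA] at h
    rw [hK', hπ, ← h]
    have h2 := Subgroup.relIndex_mul_relIndex ⊥ L K bot_le hLK
    rw [Subgroup.relIndex_bot_left, Subgroup.relIndex_bot_left] at h2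
    rw [← h2]
    refine lt_mul_of_one_lt_left (Nat.pos_of_ne_zero ?_) ?_
    · exact Subgroup.index_ne_zero_of_finite
    · exact Finite.one_lt_card_iff_nontrivial.2 ((Subgroup.nontrivial_iff_ne_bot L).2 hL)
  haveI : Group.IsSolvable K' := by
    haveI : Group.IsSolvable (K.subgroupOf A) :=
      solvable_of_surjective (f := (Subgroup.subgroupOfEquivOfLe hKA).symm.toMonoidHom)
        (Subgroup.subgroupOfEquivOfLe hKA).symm.surjective
    exact solvable_of_surjective (π.subgroupMap_surjective (K.subgroupOf A))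
  have hE'c : Nat.card E' = Nat.card E := by
    refine (Nat.card_congr (Equiv.ofBijective (fun x : E => (⟨π ⟨x, hEA x.2⟩, hmemE x x.2⟩ : E'))
      ⟨fun x y h => ?_, ?_⟩)).symm
    · have h2 := hinj ⟨x, hEA x.2⟩ ⟨y, hEA y.2⟩ (Subgroup.mem_sup_left x.2)
        (Subgroup.mem_sup_left y.2) (congrArg Subtype.val h)
      exact Subtype.ext (congrArg (fun a : A => (a : G)) h2)
    · rintro ⟨_, x, hx, rfl⟩
      exact ⟨⟨x, hx⟩, rfl⟩
  obtain ⟨f, hf, hfz, hfd⟩ := ih (Nat.card E' + Nat.card K') (by rw [hE'c]; omega) (π zA) E' S' K'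
    rfl hE'good hzA' ((hS.comap_subtype (K := A)).map π) (hnorm hSA hSE) hdisj'
    (Odd.of_dvd_nat hodd hK'dvd) inferInstance (hnorm hKA hKE) (hnorm hSA hSK)
    (by
      rintro _ ⟨x, hx, rfl⟩ hall
      have hxc : (x : G) ∈ Subgroup.zpowers z := hfix _ hx fun k hk => by
        have hc : π ⁅(⟨k, hKA hk⟩ : A), x⁆ = π 1 := by
          rw [map_one, map_commutatorElement, commutatorElement_eq_one_iff_mul_comm]
          exact hall _ ⟨⟨k, hKA hk⟩, hk, rfl⟩
        have hmem : k * (x : G) * k⁻¹ * (x : G)⁻¹ ∈ E :=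
          E.mul_mem ((Subgroup.mem_normalizer_iff.1 (hKE hk) _).1 hx) (E.inv_mem hx)
        have h := congrArg Subtype.val (hinj _ _ (Subgroup.mem_sup_left
          (by simpa [commutatorElement_def] using hmem)) (Subgroup.one_mem _) hc)
        simp only [Subgroup.coe_one] at h
        exact commutatorElement_eq_one_iff_mul_comm.1 (by simpa [commutatorElement_def] using h)
      obtain ⟨i, hi⟩ := hxc
      refine ⟨i, ?_⟩
      show π zA ^ i = π x
      rw [← map_zpow]
      exact congrArg π (Subtype.ext (by simpa using hi)))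
  -- back to `G`
  have hle : E ⊔ S ≤ A := le_sup_left
  have hcod : ∀ x : (E ⊔ S : Subgroup G), π ⟨x, hle x.2⟩ ∈ E' ⊔ S' := by
    intro x
    have : (⟨x, hle x.2⟩ : A) ∈ (E ⊔ S).subgroupOf A := x.2
    rw [Subgroup.subgroupOf_sup hEA hSA] at this
    rw [hE', hS', ← Subgroup.map_sup]
    exact ⟨_, this, rfl⟩
  refine ⟨fun g => if h : g ∈ A then f (π ⟨g, h⟩) else 0, ?_, ?_, ?_⟩
  · have h := H26.isCharacter_comp hf ((π.comp (Subgroup.inclusion hle)).codRestrict (E' ⊔ S') hcod)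
    unfold IsCharOn
    convert h using 1
    funext x
    simp only [dif_pos (hle x.2)]
    rfl
  · simp only [dif_pos (hEA hE.mem), dif_pos A.one_mem]
    show f (π zA) = -f (π 1)
    rw [map_one]; exact hfz
  · simp only [dif_pos A.one_mem]
    show f (π 1) ^ 2 * 2 = _
    rw [map_one, ← hE'c]; exact hfd

/-- The induction. -/
theorem goal_holds : ∀ n, Goal.{u} n := by
  intro n
  induction n using Nat.strong_induction_on with
  | _ n ih =>
  intro G _ _ z E S K hn hE hz hS hSE hdisj hodd hsolv hKE hSK hfix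
  classical
  haveI : Fact (Nat.Prime 2) := ⟨Nat.prime_two⟩
  by_cases hKbot : K = ⊥
  · refine ext_trivial hE hz hS hSE hdisj fun x hx => hfix x hx fun k hk => ?_
    rw [hKbot, Subgroup.mem_bot] at hk
    rw [hk, one_mul, mul_one]
  by_cases hL : K ⊓ Subgroup.centralizer (E : Set G) = ⊥
  swap
  · exact ext_quotient ih hn hE hz hS hSE hdisj hodd hsolv hKE hSK hfix hL
  -- a minimal normal subgroup of `KS` inside `K`
  set X := K ⊔ S with hX
  haveI : (K.subgroupOf X).Normal :=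
    Subgroup.normal_subgroupOf_of_le_normalizer (sup_le Subgroup.le_normalizer hSK)
  obtain ⟨A, q, hAn, hAK, hAne, hAc, hq, hAp, hAexp⟩ :=
    H19.exists_normal_elementary_le (K.subgroupOf X)
      (solvable_of_surjective (f := (Subgroup.subgroupOfEquivOfLe (le_sup_left : K ≤ X)).symm.toMonoidHom)
        (Subgroup.subgroupOfEquivOfLe (le_sup_left : K ≤ X)).symm.surjective)
      (by rw [Ne, Subgroup.subgroupOf_eq_bot, disjoint_iff, inf_eq_left.2 (le_sup_left : K ≤ X)]
          exact hKbot)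
  set K₀ := A.map X.subtype with hK₀
  have hK₀K : K₀ ≤ K := by
    rintro _ ⟨a, ha, rfl⟩
    exact hAK ha
  haveI : IsMulCommutative K₀ := by
    haveI := hAc
    exact Subgroup.map_isMulCommutative A X.subtype
  have hexp : ∀ a ∈ K₀, a ^ q = 1 := by
    rintro _ ⟨a, ha, rfl⟩
    rw [← map_pow, hAexp a ha, map_one]
  have hodd₀ : Odd (Nat.card K₀) := Odd.of_dvd_nat hodd (Subgroup.card_dvd_of_le hK₀K)
  have hK₀ne : K₀ ≠ ⊥ := fun h => hAne
    ((Subgroup.map_eq_bot_iff_of_injective A X.subtype_injective).1 h)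
  have hq2 : q ≠ 2 := by
    intro h
    obtain ⟨a, ha, ha1⟩ := K₀.ne_bot_iff_exists_ne_one.1 hK₀ne |>.elim fun a ha =>
      (⟨a.1, a.2, fun h => ha (Subtype.ext h)⟩ : ∃ a, a ∈ K₀ ∧ a ≠ 1)
    have h2 : orderOf a = 2 := orderOf_eq_prime (h ▸ hexp a ha) ha1
    exact Nat.not_even_iff_odd.2 hodd₀
      (even_iff_two_dvd.2 (h2 ▸ Subgroup.orderOf_dvd_natCard K₀ ha))
  have hXK₀ : X ≤ Subgroup.normalizer (K₀ : Set G) := by
    rw [Subgroup.le_normalizer_iff]
    rintro g hg _ ⟨a, ha, rfl⟩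
    exact ⟨⟨g, hg⟩ * a * ⟨g, hg⟩⁻¹, hAn.conj_mem a ha _, rfl⟩
  have hK₀E : K₀ ≤ Subgroup.normalizer (E : Set G) := hK₀K.trans hKE
  have hfaith : ∀ a ∈ K₀, (∀ e ∈ E, a * e = e * a) → a = 1 := fun a ha h => by
    have : a ∈ K ⊓ Subgroup.centralizer (E : Set G) :=
      ⟨hK₀K ha, Subgroup.mem_centralizer_iff.2 fun e he => (h e he).symm⟩
    rwa [hL, Subgroup.mem_bot] at this
  set C := fixE E K₀ with hC
  by_cases hCz : C ≤ Subgroup.zpowers z
  · exact ext_abelian ih (K := K) hn.le hE hz hS hSE hdisj K₀ hK₀K hq hq2 hexp hodd₀ hK₀E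
      (le_sup_right.trans hXK₀) hfaith fun x hx h => hCz ⟨hx, Subgroup.mem_centralizer_iff.2 h⟩
  set D := ⁅E, K₀⁆ ⊔ Subgroup.zpowers z with hD
  have hcop : (Nat.card K₀).Coprime (Nat.card E) := by
    obtain ⟨k, hk⟩ := IsPGroup.iff_card.1 hE.pgroup
    rw [hk]
    exact Nat.Coprime.pow_right _ ((Nat.prime_two.coprime_iff_not_dvd.2 fun h =>
      Nat.not_even_iff_odd.2 hodd₀ (even_iff_two_dvd.2 h)).symm)
  haveI : Group.IsSolvable K₀ := isSolvable_of_comm fun u v => mul_comm' u v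
  have hdec := H20.commutator_sup_centralizer hK₀E hcop (Or.inl inferInstance)
  have hCD : C ⊔ D = E := by
    refine le_antisymm (sup_le inf_le_left (sup_le (H20.commutator_le_of_le_normalizer hK₀E)
      (Subgroup.zpowers_le.2 hE.mem))) ?_
    refine hdec.symm.trans_le (sup_le ?_ le_sup_left)
    exact le_sup_of_le_right le_sup_left
  have hzC : z ∈ C := ⟨hE.mem, Subgroup.mem_centralizer_iff.2 fun k _ =>
    Subgroup.mem_center_iff.1 hz k⟩
  have hcomm : ∀ a ∈ C, ∀ b ∈ D, a * b = b * a := by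
    intro c hc b hb
    have hle : D ≤ Subgroup.centralizer ({c} : Set G) := sup_le
      (fun d hd => Subgroup.mem_centralizer_singleton_iff.2 (commute_commutator_of_fixed hE hz hc.1
        hK₀E (fun a ha => Subgroup.mem_centralizer_iff.1 hc.2 a ha) le_rfl d hd).symm)
      (Subgroup.zpowers_le.2 (Subgroup.mem_centralizer_singleton_iff.2
        (Subgroup.mem_center_iff.1 hz c).symm))
    exact (Subgroup.mem_centralizer_singleton_iff.1 (hle hb)).symm
  have hDz : ¬ D ≤ Subgroup.zpowers z := by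
    intro h
    refine hK₀ne ((Subgroup.eq_bot_iff_forall _).2 fun a ha => hfaith a ha fun e he => ?_)
    have hle : E ≤ C := by
      rw [← hCD]
      exact sup_le le_rfl (h.trans (Subgroup.zpowers_le.2 hzC))
    exact Subgroup.mem_centralizer_iff.1 (hle he).2 a ha
  obtain ⟨g1, g2, g3, g4, g5, g6⟩ := split_facts hE hzC
    (Subgroup.mem_sup_right (Subgroup.mem_zpowers z)) hcomm hCD hCz hDz
  have hnC : ∀ {P : Subgroup G}, P ≤ X → P ≤ Subgroup.normalizer (E : Set G) →
      P ≤ Subgroup.normalizer (C : Set G) ∧ P ≤ Subgroup.normalizer (D : Set G) := by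
    intro P hPX hPE
    constructor <;> rw [Subgroup.le_normalizer_iff] <;> intro g hg x hx
    · refine ⟨(Subgroup.mem_normalizer_iff.1 (hPE hg) x).1 hx.1, Subgroup.mem_centralizer_iff.2
        fun a ha => ?_⟩
      have ha' := (Subgroup.mem_normalizer_iff''.1 (hXK₀ (hPX hg)) a).1 ha
      calc a * (g * x * g⁻¹) = g * ((g⁻¹ * a * g) * x) * g⁻¹ := by group
        _ = g * (x * (g⁻¹ * a * g)) * g⁻¹ := by rw [Subgroup.mem_centralizer_iff.1 hx.2 _ ha']
        _ = g * x * g⁻¹ * a := by group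
    · have hle : D ≤ D.comap (MulAut.conj g).toMonoidHom := by
        refine sup_le (Subgroup.commutator_le.2 fun e he a ha => ?_) (Subgroup.zpowers_le.2 ?_)
        · show g * ⁅e, a⁆ * g⁻¹ ∈ D
          rw [show g * ⁅e, a⁆ * g⁻¹ = ⁅g * e * g⁻¹, g * a * g⁻¹⁆ by
            rw [commutatorElement_def, commutatorElement_def]; group]
          exact Subgroup.mem_sup_left (Subgroup.commutator_mem_commutator
            ((Subgroup.mem_normalizer_iff.1 (hPE hg) e).1 he)
            ((Subgroup.mem_normalizer_iff.1 (hXK₀ (hPX hg)) a).1 ha))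
        · show g * z * g⁻¹ ∈ D
          rw [Subgroup.mem_center_iff.1 hz g, mul_inv_cancel_right]
          exact Subgroup.mem_sup_right (Subgroup.mem_zpowers z)
      exact hle hx
  obtain ⟨hSC, hSD⟩ := hnC le_sup_right hSE
  obtain ⟨hKC, hKD⟩ := hnC le_sup_left hKE
  have hrec : ∀ E' : Subgroup G, Good z E' → Nat.card E' < Nat.card E → E' ≤ E →
      S ≤ Subgroup.normalizer (E' : Set G) → K ≤ Subgroup.normalizer (E' : Set G) →
      Ext z E' S := fun E' hE' hlt hle hS' hK' =>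
    ih _ (by omega) z E' S K rfl hE' hz hS hS' (le_bot_iff.1 (hdisj ▸ inf_le_inf hle le_rfl))
      hodd hsolv hK' hSK (fun x hx h => hfix x (hle hx) h)
  exact ext_product g1 hcomm g3 g2.mem hSC hSD hCD.symm g4 hdisj
    (hrec C g1 g5 (hCD ▸ le_sup_left) hSC hKC) (hrec D g2 g6 (hCD ▸ le_sup_right) hSD hKD)

end Cfsg.Agent.H41.ExtraExt
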