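import Cfsg.Prelude.Def_Transfer
import Cfsg.Agent.H41.ExtraExt.Main
import Cfsg.Agent.H43.CoprimeExt
import Cfsg.Agent.S0888

/-!
# The faithful character of an extraspecial `2`-subgroup extends to a split extension

The Sylow criterion reduces to the primes: odd ones are coprime to `|E|`, and for `2` the induction
over the central decompositions applies.
-/

set_option autoImplicit false

open scoped commutatorElement

attribute [local instance 10000] Fintype.ofFinite

namespace Cfsg.Agent.H41.ExtraExt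

universe u

variable {G : Type u} [Group G] [Finite G] {z : G} {E H K : Subgroup G}

/-- The preimage of a Sylow subgroup of the complement. -/
theorem relIndex_sylow (hn : E.Normal) (hdisj : E ⊓ H = ⊥) (htop : E ⊔ H = ⊤) {p : ℕ}
    [hp : Fact p.Prime] (R : Sylow p H) :
    Nat.Coprime (E ⊔ (R : Subgroup H).map H.subtype).index p ∧
      ∃ k, E.relIndex (E ⊔ (R : Subgroup H).map H.subtype) = p ^ k := by
  set R' := (R : Subgroup H).map H.subtype with hR'
  have hR'H : R' ≤ H := Subgroup.map_subtype_le _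
  have hR'c : Nat.card R' = Nat.card (R : Subgroup H) :=
    Subgroup.card_map_of_injective H.subtype_injective
  have h1 : E.relIndex (E ⊔ R') = Nat.card R' := by
    rw [sup_comm, Subgroup.relIndex_sup_right, ← Subgroup.inf_relIndex_right,
      show E ⊓ R' = ⊥ from le_bot_iff.1 (hdisj ▸ inf_le_inf le_rfl hR'H),
      Subgroup.relIndex_bot_left]
  have hidx : E.index = Nat.card H := by
    rw [← Subgroup.relIndex_top_right E, ← htop, sup_comm, Subgroup.relIndex_sup_right,
      ← Subgroup.inf_relIndex_right, hdisj, Subgroup.relIndex_bot_left]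
  refine ⟨?_, ?_⟩
  · have h2 := Subgroup.relIndex_mul_index (H := E) (K := E ⊔ R') le_sup_left
    rw [h1, hR'c, hidx, ← Subgroup.card_mul_index (R : Subgroup H)] at h2
    rw [Nat.eq_of_mul_eq_mul_left Nat.card_pos h2]
    exact (hp.out.coprime_iff_not_dvd.2 R.not_dvd_index).symm
  · obtain ⟨k, hk⟩ := IsPGroup.iff_card.1 R.isPGroup'
    exact ⟨k, by rw [h1, hR'c, hk]⟩

/-- The extension theorem, with the solvability of the odd-order group as a hypothesis. -/
theorem exists_extension [E.Normal] (hE : Cfsg.IsExtraspecial 2 ↥E) (hEH : E ⊓ H = ⊥)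
    (hEHtop : E ⊔ H = ⊤) (hKH : K ≤ H) (hKn : ∀ h ∈ H, ∀ k ∈ K, h * k * h⁻¹ ∈ K)
    (hKodd : Odd (Nat.card ↥K)) (hKsolv : Group.IsSolvable K) (hEK : ⁅E, K⁆ = E)
    (θ : Cfsg.IrrCharacter ↥E)
    (hθ : ∀ e : ↥E, (θ : ↥E → ℂ) e = (θ : ↥E → ℂ) 1 → e = 1) :
    ∃ χ : Cfsg.IrrCharacter G, ∀ e : ↥E, (χ : G → ℂ) e = (θ : ↥E → ℂ) e := by
  classical
  haveI : Fact (Nat.Prime 2) := ⟨Nat.prime_two⟩
  obtain ⟨⟨h2E, hΦ, hcomm⟩, hcard⟩ := hE
  -- the central involution
  obtain ⟨⟨w, hw⟩, hw1⟩ : ∃ w : Subgroup.center E, w ≠ 1 := by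
    have : Nontrivial (Subgroup.center E) := Finite.one_lt_card_iff_nontrivial.1 (by omega)
    exact exists_ne 1
  have hw1' : w ≠ 1 := fun h => hw1 (Subtype.ext h)
  have hwsq : w ^ 2 = 1 := by
    have h := pow_card_eq_one' (G := Subgroup.center E) (x := ⟨w, hw⟩)
    rw [hcard] at h
    exact congrArg Subtype.val h
  have hcases : ∀ x ∈ Subgroup.center E, x = 1 ∨ x = w := by
    intro x hx
    by_contra hcon
    push Not at hcon
    have h3 : ({1, ⟨w, hw⟩, ⟨x, hx⟩} : Finset (Subgroup.center E)).card ≤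
        Fintype.card (Subgroup.center E) := Finset.card_le_univ _
    rw [← Nat.card_eq_fintype_card, hcard, Finset.card_insert_of_notMem, Finset.card_pair] at h3
    · omega
    · exact fun h => hcon.2 (congrArg Subtype.val h).symm
    · simp only [Finset.mem_insert, Finset.mem_singleton, not_or]
      exact ⟨fun h => hw1' (congrArg Subtype.val h).symm,
        fun h => hcon.1 (congrArg Subtype.val h).symm⟩
  set z : G := (w : G) with hz_def
  have hE' : Good z E := by
    refine ⟨w.2, fun h => hw1' (Subtype.ext h), ?_, ?_, ?_, h2E⟩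
    · exact congrArg Subtype.val hwsq
    · intro x hx y hy
      have hm : ⁅(⟨x, hx⟩ : E), ⟨y, hy⟩⁆ ∈ Subgroup.center E := hcomm ▸
        Subgroup.commutator_mem_commutator (Subgroup.mem_top _) (Subgroup.mem_top _)
      rcases hcases _ hm with h | h
      · have := congrArg Subtype.val h
        rw [show ⁅x, y⁆ = 1 from this]
        exact Subgroup.one_mem _
      · rw [show ⁅x, y⁆ = z from congrArg Subtype.val h]
        exact Subgroup.mem_zpowers z
    · intro x hx hall
      rcases hcases ⟨x, hx⟩ (Subgroup.mem_center_iff.2 fun g => Subtype.ext (hall g g.2).symm)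
        with h | h
      · rw [show x = 1 from congrArg Subtype.val h]
        exact Subgroup.one_mem _
      · rw [show x = z from congrArg Subtype.val h]
        exact Subgroup.mem_zpowers z
  have hz : z ∈ Subgroup.center G := by
    rw [Subgroup.mem_center_iff]
    intro g
    have hgz : g * z * g⁻¹ ∈ E := Subgroup.Normal.conj_mem ‹E.Normal› z w.2 g
    have hcen : (⟨g * z * g⁻¹, hgz⟩ : E) ∈ Subgroup.center E := by
      rw [Subgroup.mem_center_iff]
      intro e
      have h := congrArg Subtype.val (Subgroup.mem_center_iff.1 hw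
        ⟨g⁻¹ * e * g, by simpa using Subgroup.Normal.conj_mem ‹E.Normal› e e.2 g⁻¹⟩)
      refine Subtype.ext ?_
      show (e : G) * (g * z * g⁻¹) = g * z * g⁻¹ * e
      calc (e : G) * (g * z * g⁻¹) = g * (g⁻¹ * e * g * z) * g⁻¹ := by group
        _ = g * (z * (g⁻¹ * e * g)) * g⁻¹ := by rw [show g⁻¹ * (e : G) * g * z =
              z * (g⁻¹ * e * g) from h]
        _ = g * z * g⁻¹ * e := by group
    rcases hcases _ hcen with h | h
    · exact absurd (Subtype.ext (conj_eq_one_iff.1 (congrArg Subtype.val h : g * z * g⁻¹ = 1)))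
        hw1'
    · exact mul_inv_eq_iff_eq_mul.1 (congrArg Subtype.val h : g * z * g⁻¹ = z)
  -- fixed points of `K`
  have hKE : K ≤ Subgroup.normalizer (E : Set G) := by
    rw [Subgroup.normalizer_eq_top]; exact le_top
  have hfix : ∀ x ∈ E, (∀ k ∈ K, k * x = x * k) → x ∈ Subgroup.zpowers z := by
    intro x hx hxK
    refine hE'.center x hx fun y hy => ?_
    exact commute_commutator_of_fixed hE' hz hx hKE hxK (le_refl E) y (hEK.symm ▸ hy)
  -- the sign of `θ`
  have hθz : θ.1 ⟨z, hE'.mem⟩ = -θ.1 1 := by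
    rcases sign_cases θ (hE'.center_mem hz) (Subtype.ext hE'.sq) with ⟨h, -⟩ | ⟨h, -⟩
    · exact absurd (hθ _ h) hw1'
    · exact h
  -- invariance
  have hinv : ∀ (g : G) (n : E),
      θ.1 ⟨g * n * g⁻¹, Subgroup.Normal.conj_mem ‹E.Normal› (n : G) n.2 g⟩ = θ.1 n := by
    intro g n
    let e : E ≃* E := MulAut.conjNormal g
    let ψ : Cfsg.IrrCharacter E := ⟨fun x => θ.1 (e x), H56.isIrrCharacter_comp_equiv θ.2 e⟩
    have hez : e ⟨z, hE'.mem⟩ = ⟨z, hE'.mem⟩ := Subtype.ext (by
      show g * z * g⁻¹ = z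
      rw [Subgroup.mem_center_iff.1 hz g, mul_inv_cancel_right])
    have hψ : ψ.1 ⟨z, hE'.mem⟩ = -ψ.1 1 := by
      show θ.1 (e _) = -θ.1 (e 1)
      rw [hez, map_one]; exact hθz
    have h := congrArg (fun φ : Cfsg.IrrCharacter E => φ.1 n) (hE'.eq_of_sign hz ψ θ hψ hθz)
    exact h
  obtain ⟨χ, hχ, hres⟩ := S0888.result E θ.1 θ.2 hinv fun p hp => by
    haveI := Fact.mk hp
    obtain ⟨R⟩ : Nonempty (Sylow p H) := inferInstance
    obtain ⟨hidx, hrel⟩ := relIndex_sylow (p := p) ‹E.Normal› hEH hEHtop R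
    set R' := (R : Subgroup H).map H.subtype with hR'
    have hR'H : R' ≤ H := Subgroup.map_subtype_le _
    have hR'd : E ⊓ R' = ⊥ := le_bot_iff.1 (hEH ▸ inf_le_inf le_rfl hR'H)
    by_cases hp2 : p = 2
    · subst hp2
      have hR'p : IsPGroup 2 R' := R.isPGroup'.map _
      have hR'E : R' ≤ Subgroup.normalizer (E : Set G) := by
        rw [Subgroup.normalizer_eq_top]; exact le_top
      have hR'K : R' ≤ Subgroup.normalizer (K : Set G) :=
        Subgroup.le_normalizer_iff.2 fun r hr k hk => hKn r (hR'H hr) k hk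
      obtain ⟨f, hf, hfz, hfd⟩ := goal_holds _ z E R' K rfl hE' hz hR'p hR'E hR'd hKodd hKsolv
        hKE hR'K hfix
      have hfE := hE'.irreducible hz (IsCharOn.mono hf (le_sup_left : E ≤ E ⊔ R')) hfz hfd
      have heq : (fun x : E => f x) = θ.1 :=
        congrArg Subtype.val (hE'.eq_of_sign hz ⟨_, hfE.1⟩ θ hfz hθz)
      refine ⟨E ⊔ R', le_sup_left, fun x => f x, hidx, hrel, ?_, fun n => congrFun heq n⟩
      exact isIrr_of_res (Subgroup.inclusion (le_sup_left : E ≤ E ⊔ R')) hf hfE.1
    · -- coprime index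
      set P := E ⊔ R' with hP
      set N := E.subgroupOf P with hN
      haveI : N.Normal := inferInstanceAs (E.subgroupOf P).Normal
      let e : N ≃* E := Subgroup.subgroupOfEquivOfLe (le_sup_left : E ≤ P)
      obtain ⟨d, σ, hσ, hσe⟩ := H56.isIrrCharacter_comp_equiv θ.2 e
      haveI := hσ
      obtain ⟨k, hk⟩ := hrel
      obtain ⟨a, ha⟩ := IsPGroup.iff_card.1 h2E
      have hNc : Nat.card N = 2 ^ a := by rw [← ha]; exact Nat.card_congr e.toEquiv
      have hcop : ∀ m, m ∣ 2 ^ a → Nat.Coprime N.index m := by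
        intro m hm
        show Nat.Coprime (E.relIndex P) m
        rw [hk]
        exact ((Nat.coprime_primes hp Nat.prime_two).2 hp2).pow k a |>.coprime_dvd_right hm
      obtain ⟨χ, hχ, hres⟩ := H43.exists_ext_of_coprime σ (fun g n => by
        rw [hσe]
        show θ.1 (e _) = θ.1 (e n)
        rw [← hinv (g : G) (e n)]
        exact congrArg θ.1 (Subtype.ext rfl)) (Nat.Coprime.mul_right
          (hcop _ (hNc ▸ by
            have h := H43.irr_charDegree_dvd (⟨σ.character, d, σ, hσ, rfl⟩ : Cfsg.IrrCharacter N)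
            simpa [Cfsg.charDegree, σ.char_one] using h))
          (hcop _ (hNc ▸ orderOf_dvd_of_pow_eq_one (MonoidHom.ext fun x => by
            rw [MonoidHom.pow_apply, ← map_pow, pow_card_eq_one', map_one, MonoidHom.one_apply]))))
      refine ⟨P, le_sup_left, χ, hidx, ⟨k, hk⟩, hχ, fun n => ?_⟩
      have h := hres ⟨⟨(n : G), le_sup_left (a := E) n.2⟩, n.2⟩
      rw [hσe] at h
      exact h.trans (congrArg θ.1 (Subtype.ext rfl))
  exact ⟨⟨χ, hχ⟩, hres⟩

end Cfsg.Agent.H41.ExtraExt
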